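/-
P29: lemmas on 2-groups shared by R3 and Rk2.
-/
import Cfsg.Agent.P29.Defs
import Cfsg.Agent.H2.ZC2

set_option autoImplicit false
set_option linter.unusedSectionVars false

namespace Cfsg.Agent.P29

open Subgroup Cfsg Cfsg.Agent Cfsg.Agent.FT Cfsg.Agent.P6

universe u

variable {X : Type u} [Group X] [Finite X]

theorem E8.mono {H K : Subgroup X} (h : E8 H) (hl : H ≤ K) : E8 K :=
  let ⟨E, a, b⟩ := h; ⟨E, a.trans hl, b⟩

theorem E8.syl {S H : Subgroup X} (h : E8 H) (hS : IsSyl 2 S H) : E8 S := by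
  obtain ⟨E, a, b⟩ := h
  obtain ⟨g, -, hg⟩ := hS.exists_conj_le Nat.prime_two b.pgrp a
  exact ⟨_, hg, b.conj g⟩

theorem sq_of_elem {n : ℕ} {E : Subgroup X} (h : IsElem 2 n E) {a : X} (ha : a ∈ E) : a * a = 1 := by
  rw [← pow_two]; exact h.1.2 a ha

theorem card_le_two_mul {E K S : Subgroup X} (hE : E ≤ S) (h : K.relIndex S ≤ 2) :
    𝐨(E) ≤ 2 * 𝐨((E ⊓ K : Subgroup X)) := by
  have h1 := H1.card_mul_relIndex (inf_le_left : E ⊓ K ≤ E)
  rw [inf_relIndex_left] at h1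
  have h2 : K.relIndex E ≤ K.relIndex S := relIndex_le_of_le_right hE index_ne_zero_of_finite
  rw [← h1, mul_comm]
  exact Nat.mul_le_mul_right _ (h2.trans h)

theorem exists_four_le {E K S : Subgroup X} (hE : IsElem 2 3 E) (hl : E ≤ S) (h : K.relIndex S ≤ 2) :
    ∃ V ≤ E ⊓ K, IsElem 2 2 V := by
  obtain ⟨n, hn⟩ := elemAb_exists_isElem Nat.prime_two
    (A := E ⊓ K) (elemAb_of_le inf_le_left hE.1)
  have := card_le_two_mul hl h
  rw [hE.card, hn.card] at this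
  refine hn.exists_le Nat.prime_two ?_
  by_contra hc
  have : n = 0 ∨ n = 1 := by omega
  rcases this with rfl | rfl <;> omega

theorem no_e8_of_cyc {S : Subgroup X} {x : X} (h : (zpowers x).relIndex S ≤ 2) : ¬ E8 S := by
  rintro ⟨E, hl, hE⟩
  obtain ⟨V, hV, e⟩ := exists_four_le hE hl h
  exact e.not_isCyclic Nat.prime_two le_rfl (isCyclic_of_le (hV.trans inf_le_right) inferInstance)

theorem relIndex_map_subtype {S : Subgroup X} (x : S) :
    (zpowers (x : X)).relIndex S = (zpowers x).index := by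
  have e : zpowers (x : X) = (zpowers x).map S.subtype := (MonoidHom.map_zpowers S.subtype x).symm
  rw [relIndex, e]
  congr 1
  exact comap_map_eq_self_of_injective S.subtype_injective _

theorem exists_U {S : Subgroup X} (hS : IsPGroup 2 S) (h : E8 S) : ∃ U, U ⊲ S ∧ IsElem 2 2 U := by
  by_cases hc : ∀ A : Subgroup S, A.Normal → IsMulCommutative A → IsCyclic A
  · exfalso
    rcases H3.normal_abelian_cyclic_cases hS hc with e | ⟨-, n, x, y, -, -, e, -⟩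
    · obtain ⟨E, a, b⟩ := h
      exact b.not_isCyclic Nat.prime_two (by omega) (isCyclic_of_le a e)
    · exact no_e8_of_cyc (x := (x : X)) (by rw [relIndex_map_subtype, e]) h
  push Not at hc
  obtain ⟨A, a, b, c⟩ := hc
  obtain ⟨E, e1, -, e2, e3⟩ := H3.exists_normal_elementary_sq_le hS A b c
  exact ⟨E.map S.subtype, ⟨map_subtype_le _, (normal_subgroupOf_iff_le_normalizer (map_subtype_le _)).1
    (by rwa [subgroupOf, comap_map_eq_self_of_injective S.subtype_injective])⟩,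
    (isElem_map_iff S.subtype_injective).2 ⟨e2, e3⟩⟩

theorem e8_cent {S U : Subgroup X} (hS : IsPGroup 2 S) (hU : U ⊲ S) (h4 : IsElem 2 2 U) (h : E8 S)
    {s : X} (hs : s ∈ S) (hc : s ∈ 𝐂(U)) (is : Inv s) : E8 (S ⊓ 𝐂[s]) := by
  have key : ∀ a ∈ S, a ∈ 𝐂(U) → a * a = 1 → a ∉ U → a ∈ 𝐂[s] → E8 (S ⊓ 𝐂[s]) :=
    fun a h1 h2 h3 h5 h6 => ⟨U ⊔ zpowers a, sup_le (le_inf hU.1 fun x hx =>
      mem_cent1.2 (mem_cent.1 hc x hx).symm) (zpowers_le.2 ⟨h1, h6⟩),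
      H2.ZC.isElem_sup_zpowers h4 h5 (by rw [pow_two, h3]) h2⟩
  by_cases hsU : s ∈ U
  · obtain ⟨E, hl, hE⟩ := h
    obtain ⟨V, hV, e⟩ := exists_four_le hE hl (H2.ZC.relIndex_cent_le_two hS h4 hU.2)
    by_cases hVU : V ≤ U
    · have e' := h4.eq_of_le e hVU
      exact ⟨E, le_inf hl fun x hx => mem_cent1.2 (mem_cent.1 (hE.le_cent hx) s
        (hV (e' ▸ hsU)).1), hE⟩
    · obtain ⟨v, hv, v1⟩ := SetLike.not_le_iff_exists.1 hVU
      exact key v (hl (hV hv).1) (hV hv).2 (sq_of_elem e hv) v1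
        (mem_cent1.2 (mem_cent.1 (hV hv).2 s hsU))
  · exact key s hs hc is.sq hsU (self_mem_cent1 s)

theorem NC.dec' (h : NC (⊤ : Subgroup X)) {S : Subgroup X} (hS : IsSyl 2 S ⊤) {z : X} (iz : Inv z)
    (hz : S ≤ 𝐂[z]) : IsSyl 2 S (⊤ ⊓ 𝐂[z]) := hS.of_le (le_inf le_top hz) le_top

theorem NC.syl_cent (h : NC (⊤ : Subgroup X)) {S : Subgroup X} (hS : IsSyl 2 S ⊤) {z s : X}
    (iz : Inv z) (hz : S ≤ 𝐂[z]) (hs : s ∈ S) : IsSyl 2 (S ⊓ 𝐂[s]) (𝐂[z] ⊓ 𝐂[s]) := by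
  obtain ⟨Q, hQ, hl⟩ := exists_isSyl_ge Nat.prime_two (hS.pgrp.to_le (inf_le_left : S ⊓ 𝐂[s] ≤ S))
    (inf_le_inf_right 𝐂[s] hz)
  suffices e : Q ≤ S ⊓ 𝐂[s] by rwa [← le_antisymm e hl]
  intro q hq
  obtain ⟨o, ho, r, hr, rfl⟩ := h.dec iz (h.dec' hS iz hz) (g := q) ⟨trivial, (hQ.le hq).1⟩
  have h0 : o * r * s * (o * r)⁻¹ = s := mem_cent1_iff_conj.1 (hQ.le hq).2
  have h1 : r * s * r⁻¹ * s⁻¹ ∈ th ⊤ z := by
    have : r * s * r⁻¹ * s⁻¹ = o⁻¹ * (s * o * s⁻¹) := by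
      have : r * s * r⁻¹ = o⁻¹ * (o * r * s * (o * r)⁻¹) * o := by group
      rw [this, h0]; group
    rw [this]
    exact mul_mem (inv_mem ho) (P4.conj_mem (le_norm_th _ _ ⟨trivial, hz hs⟩) ho)
  have h2 : r ∈ S ⊓ 𝐂[s] := ⟨hr, mem_cent1_iff_conj.2 (mul_inv_eq_one.1
    (P4.eq_one_of_odd_of_mem hS.pgrp (odd_orderOf_of_mem (odd_th _ _) h1)
      (mul_mem (mul_mem (mul_mem hr hs) (inv_mem hr)) (inv_mem hs))))⟩
  have h3 : o = 1 := P4.eq_one_of_odd_of_mem hQ.pgrp (odd_orderOf_of_mem (odd_th _ _) ho)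
    ((mul_mem_cancel_right (hl h2)).1 hq)
  rwa [h3, one_mul]

/-- the involutions of `H` lie in `⟨s, z⟩` -/
def Om (H : Subgroup X) (s z : X) : Prop := ∀ a ∈ H, a * a = 1 → a = 1 ∨ a = s ∨ a = z ∨ a = s * z

theorem NC.swap (h : NC (⊤ : Subgroup X)) {S R : Subgroup X} (hS : IsSyl 2 S ⊤) {z s : X}
    (iz : Inv z) (zS : z ∈ S) (hz : S ≤ 𝐂[z]) (hs : s ∈ S) (ne : s ≠ z) (hΩ : Om (S ⊓ 𝐂[s]) s z)
    (hR : IsPGroup 2 R) (h1 : S ⊓ 𝐂[s] < R) (h2 : R ≤ 𝐂[s]) :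
    ∃ w ∈ 𝐍(S ⊓ 𝐂[s]), w * s * w⁻¹ = s ∧ w * z * w⁻¹ = s * z := by
  obtain ⟨w, wR, wN, w1⟩ := H1.exists_mem_normalizer_of_lt hR.isNilpotent h1
  have a := mem_cent1_iff_conj.1 (h2 wR)
  refine ⟨w, wN, a, ?_⟩
  rcases hΩ _ (P4.conj_mem wN ⟨zS, mem_cent1_comm.1 (hz hs)⟩) (iz.conj w).sq with e | e | e | e
  · exact absurd e (iz.conj w).ne
  · exact absurd ((MulAut.conj w).injective (a.trans e.symm)) ne
  · refine absurd ?_ w1
    rw [← (h.syl_cent hS iz hz hs).eq_of_le Nat.prime_two (Q := R ⊓ 𝐂[z])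
      (le_inf h1.le (inf_le_left.trans hz)) (le_inf inf_le_right (inf_le_left.trans h2))
      (hR.to_le inf_le_left)]
    exact ⟨wR, mem_cent1_iff_conj.2 e⟩
  · exact e

theorem card_le_four {H K : Subgroup X} (hH : IsPGroup 2 H) {s z w : X} (hΩ : Om H s z)
    (hK : ∀ a ∈ H, a * a ∈ K) (sK : s ∉ K) (zK : z ∈ K) (wN : w ∈ 𝐍(H))
    (e : w * z * w⁻¹ = s * z) : 𝐨(H) ≤ 4 := by
  have all : ∀ a ∈ H, a * a = 1 := fun a ha => by
    by_contra hc
    obtain ⟨k, hk⟩ := IsPGroup.iff_orderOf.1 hH ⟨a, ha⟩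
    rw [orderOf_mk] at hk
    obtain ⟨j, rfl⟩ : ∃ j, k = j + 2 := by
      rcases k with _ | _ | k
      · exact absurd (by rw [orderOf_eq_one_iff.1 hk, one_mul]) hc
      · exact absurd (by rw [← pow_two]; exact orderOf_dvd_iff_pow_eq_one.1 (by rw [hk]; rfl)) hc
      · exact ⟨k, rfl⟩
    set b := a ^ 2 ^ j with hb
    have bH : b ∈ H := pow_mem ha _
    have b4 : b * b * (b * b) = 1 := by
      rw [hb, ← pow_add, ← pow_add, ← orderOf_dvd_iff_pow_eq_one, hk]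
      exact Dvd.intro 1 (by ring)
    have b2 : b * b ≠ 1 := fun e => by
      rw [hb, ← pow_add, ← orderOf_dvd_iff_pow_eq_one, hk, ← two_mul, ← pow_succ'] at e
      have := (Nat.pow_dvd_pow_iff_le_right one_lt_two).1 e
      omega
    have sz : s * z ∉ K := fun e => sK ((mul_mem_cancel_right zK).1 e)
    rcases hΩ _ (mul_mem bH bH) b4 with e' | e' | e' | e'
    · exact b2 e'
    · exact sK (e' ▸ hK b bH)
    · refine sz ?_
      have := hK _ (P4.conj_mem wN bH)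
      rwa [show w * b * w⁻¹ * (w * b * w⁻¹) = w * (b * b) * w⁻¹ by group, e', e] at this
    · exact sz (e' ▸ hK b bH)
  have : (H : Set X) ⊆ {1, s, z, s * z} := fun a ha => by
    simpa using hΩ a ha (all a ha)
  refine (Set.ncard_le_ncard this).trans ((Set.ncard_insert_le _ _).trans ?_)
  refine (Nat.succ_le_succ (Set.ncard_insert_le _ _)).trans ?_
  refine (Nat.succ_le_succ (Nat.succ_le_succ (Set.ncard_insert_le _ _))).trans ?_
  rw [Set.ncard_singleton]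

theorem cyc_of_four {S : Subgroup X} (hS : IsPGroup 2 S) {s : X} (hs : s ∈ S)
    (h : 𝐨((S ⊓ 𝐂[s] : Subgroup X)) ≤ 4) : ∃ x, (zpowers x).relIndex S ≤ 2 := by
  obtain ⟨x, hx⟩ := H2.ZC.exists_index_le_two hS (t := ⟨s, hs⟩) (by
    refine le_of_eq_of_le ?_ h
    rw [← card_map_of_injective S.subtype_injective]
    congr 2
    ext y
    constructor
    · rintro ⟨y, hy, rfl⟩
      exact ⟨y.2, mem_cent1.2 (congrArg Subtype.val (mem_cent1.1 hy))⟩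
    · rintro ⟨h1, h2⟩
      exact ⟨⟨y, h1⟩, mem_cent1.2 (Subtype.ext (mem_cent1.1 h2)), rfl⟩)
  exact ⟨x, by rwa [relIndex_map_subtype]⟩

theorem sq_mem_of_relIndex {K S : Subgroup X} (h : K.relIndex S ≤ 2) {a : X} (ha : a ∈ S) :
    a * a ∈ K := by
  have h0 : K.relIndex S ≠ 0 := index_ne_zero_of_finite
  rcases (by omega : K.relIndex S = 1 ∨ K.relIndex S = 2) with e | e
  · exact relIndex_eq_one.1 e (mul_mem ha ha)
  · exact mul_self_mem_of_index_two e (⟨a, ha⟩ : S)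

/-- if `C(s) ∩ C(z)` has no `E₈`, its involutions lie in `⟨s, z⟩` -/
theorem om_of_not_e8 {H : Subgroup X} {s z : X} (is : Inv s) (iz : Inv z) (ne : s ≠ z)
    (sH : s ∈ H) (zH : z ∈ H) (h1 : H ≤ 𝐂[s]) (h2 : H ≤ 𝐂[z]) (h : ¬ E8 H) : Om H s z := by
  intro a ha aa
  have h4 := H2.ZC.isElem_two iz.ne (by rw [pow_two, iz.sq]) is.ne (by rw [pow_two, is.sq]) ne
    (h2 sH)
  by_cases hm : a ∈ zpowers z ⊔ zpowers s
  · obtain ⟨_, h3, _, h5, rfl⟩ := (H1.mem_sup_iff_of_le_normalizer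
      ((zpowers_le.2 (h4.le_cent (mem_sup_left (mem_zpowers z)))).trans
        ((cent_anti le_sup_right).trans (centralizer_le_normalizer _)))).1 hm
    rcases H2.ZC.eq_or_eq_of_mem_zpowers (by rw [pow_two, iz.sq]) h3 with rfl | rfl <;>
      rcases H2.ZC.eq_or_eq_of_mem_zpowers (by rw [pow_two, is.sq]) h5 with rfl | rfl
    · simp
    · simp
    · simp
    · exact Or.inr (Or.inr (Or.inr (mem_cent1.1 (h2 sH))))
  · refine absurd ⟨_, sup_le (sup_le (zpowers_le.2 zH) (zpowers_le.2 sH)) (zpowers_le.2 ha),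
      H2.ZC.isElem_sup_zpowers h4 hm (by rw [pow_two, aa]) ?_⟩ h
    rw [cent_sup, cent_zpowers, cent_zpowers]
    exact ⟨h2 ha, h1 ha⟩

end Cfsg.Agent.P29
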