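/-
P29, chapter Cit: CIT groups of 2-rank at least 3.
-/
import Cfsg.Agent.P29.Defs
import Cfsg.Agent.H9.FixCount

set_option autoImplicit false
set_option linter.unusedSectionVars false
set_option linter.style.haveILetI false

namespace Cfsg.Agent.P29

open Subgroup Cfsg Cfsg.Agent Cfsg.Agent.FT Cfsg.Agent.L Cfsg.Agent.P2 Cfsg.Agent.P4
open scoped commutatorElement

universe u

namespace Ct

variable {G : Type u} [Group G] [Finite G]

theorem cent_zp (x : G) : 𝐂(zpowers x) = 𝐂[x] := by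
  rw [zpowers_eq_closure, centralizer_closure]

theorem mem_norm_of_inv {t x : G} (e : t * x * t⁻¹ = x⁻¹) : t ∈ 𝐍(zpowers x) :=
  mem_norm_of_conj_le (by
    rintro _ ⟨_, ⟨k, rfl⟩, rfl⟩
    exact ⟨-k, by simp [← e, zpow_neg, ← inv_zpow]⟩)

/-- Sylow numbers for a Sylow subgroup of prime order. -/
theorem num {H : Subgroup G} {x : G} (hx : x ∈ H) {p : ℕ} (hp : p.Prime) (xp : orderOf x = p)
    (h2 : ¬ p * p ∣ 𝐨(H)) : ∃ e n, 𝐨(H) = 𝐨((H ⊓ 𝐂[x] : Subgroup G)) * e * n ∧ e ∣ p - 1 ∧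
      n % p = 1 ∧ e = 𝐂[x].relIndex (H ⊓ 𝐍(zpowers x)) ∧
      (p ≠ 2 → ∀ t ∈ H, t * x * t⁻¹ = x⁻¹ → 2 ∣ e) := by
  haveI := Fact.mk hp
  have c : 𝐨(zpowers x) = p := by rw [Nat.card_zpowers, xp]
  have le : 𝐂[x] ≤ 𝐍(zpowers x) := cent_zp x ▸ centralizer_le_normalizer _
  obtain ⟨k, k1, k2, -⟩ := H9.exists_card_normalizer_eq c
  rw [cent_zp] at k2
  have nrm : (𝐂[x].subgroupOf 𝐍(zpowers x)).Normal := by
    rw [← cent_zp, ← normalizerMonoidHom_ker]; infer_instance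
  have h3 := H9.card_sylow_subgroup (zpowers_le.2 hx) (IsPGroup.of_card (n := 1) (by rw [c, pow_one]))
    (fun h => h2 (by
      rw [← H1.card_mul_relIndex (zpowers_le.2 hx), c]; exact Nat.mul_dvd_mul_left _ h))
  have h4 := card_sylow_modEq_one p H
  refine ⟨_, 𝐍(zpowers x).relIndex H, ?_, ?_, ?_, rfl, fun p2 t ht e => ?_⟩
  · rw [← inf_relIndex_right 𝐂[x], ← inf_relIndex_right 𝐍(zpowers x),
      show 𝐂[x] ⊓ (H ⊓ 𝐍(zpowers x)) = H ⊓ 𝐂[x] from le_antisymm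
        (fun g hg => ⟨hg.2.1, hg.1⟩) fun g hg => ⟨hg.2, hg.1, le hg.2⟩,
      H1.card_mul_relIndex (inf_le_inf_left H le), inf_comm 𝐍(zpowers x),
      H1.card_mul_relIndex inf_le_left]
  · refine Dvd.dvd.trans ?_ k1
    rw [← k2]
    have := relIndex_dvd_index_of_normal (𝐂[x].subgroupOf 𝐍(zpowers x))
      ((H ⊓ 𝐍(zpowers x)).subgroupOf 𝐍(zpowers x))
    rwa [relIndex_subgroupOf inf_le_right] at this
  · rw [← h3, h4, Nat.mod_eq_of_lt hp.one_lt]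
  · by_contra h5
    have tn := mem_norm_of_inv e
    haveI : (𝐂[x].subgroupOf (H ⊓ 𝐍(zpowers x))).Normal := H1.normal_subgroupOf_of_le
      (inf_le_right.trans (cent_zp x ▸ H1.le_normalizer_centralizer le_rfl))
    have h6 : t ^ 𝐂[x].relIndex (H ⊓ 𝐍(zpowers x)) ∈ 𝐂[x] :=
      (𝐂[x].subgroupOf (H ⊓ 𝐍(zpowers x))).pow_index_mem ⟨t, ht, tn⟩
    obtain ⟨j, hj⟩ := odd_iff_not_dvd.2 h5
    have h7 : t ^ 2 ∈ 𝐂[x] := mem_cent1_iff_conj.2 (by rw [sq]; exact inv_inv_conj e e)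
    rw [hj, pow_succ, pow_mul, mul_mem_cancel_left (pow_mem h7 j), mem_cent1_iff_conj, e] at h6
    have : p ∣ 2 := xp ▸ orderOf_dvd_of_pow_eq_one (by rw [sq]; exact mul_eq_one_iff_inv_eq.2 h6)
    exact p2 ((Nat.prime_dvd_prime_iff_eq hp Nat.prime_two).1 this)

theorem inv_all (h : CIT G) {t x : G} (t1 : t ≠ 1) (tt : t * t = 1) (x1 : x ≠ 1)
    (xo : Odd (orderOf x)) (e : t ∈ 𝐍(zpowers x)) : ∀ g ∈ 𝐂[x], t * g * t = g⁻¹ :=
  inverts_of_fpf tt ((cent_zp x ▸ H1.le_normalizer_centralizer le_rfl :) e) fun g hg c =>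
    (h t g tt ((h.odd_cent x1 xo).of_dvd_nat (orderOf_dvd_natCard _ hg)) c).resolve_left t1

theorem le_of_inv {A : Subgroup G} {t x : G} (tt : t * t = 1) (h : ∀ g ∈ A, t * g * t = g⁻¹)
    (hx : x ∈ A) : A ≤ 𝐂[x] := fun g hg => mem_cent1.2 (inv_injective (by
  rw [← h _ (mul_mem hx hg), mul_inv_rev, ← h _ hx, ← h _ hg]
  calc _ = t * x * (t * t) * g * t := by rw [tt]; group
    _ = _ := by group))

theorem dvd_nine {k : ℕ} (h : k ∣ 9) : k = 1 ∨ k = 3 ∨ k = 9 := by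
  have := Nat.le_of_dvd (by norm_num) h
  interval_cases k <;> simp_all

theorem odd_dvd {c m : ℕ} (hc : Odd c) (h : c ∣ 64 * m) : c ∣ m :=
  Nat.Coprime.dvd_of_dvd_mul_left (Nat.Coprime.pow_right 6 (Nat.coprime_two_right.2 hc)) h

open scoped IsMulCommutative in
theorem no35 [IsSimpleGroup G] (h : CIT G) (hG : Nat.card G = 20160) {w x : G} (w5 : orderOf w = 5)
    (x7 : orderOf x = 7) : ¬ Commute w x := fun c => by
  have w1 : w ≠ 1 := fun e => by simp [e] at w5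
  have x1 : x ≠ 1 := fun e => by simp [e] at x7
  have wo : Odd (orderOf w) := by rw [w5]; decide
  have xo : Odd (orderOf x) := by rw [x7]; decide
  obtain ⟨e, n, a1, a2, a3, a4, -⟩ := num (mem_top w) Nat.prime_five w5 (by rw [card_top, hG]; decide)
  obtain ⟨e', n', b1, b2, b3, -, b5⟩ := num (mem_top x) Nat.prime_seven x7
    (by rw [card_top, hG]; decide)
  rw [top_inf_eq, card_top, hG] at a1 b1
  rw [top_inf_eq] at a4
  haveI := Fact.mk Nat.prime_five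
  have cw : 𝐨(zpowers w) = 5 := by rw [Nat.card_zpowers, w5]
  have e1 : e ≠ 1 := fun e1 => by
    have hP : IsPGroup 5 (zpowers w) := IsPGroup.of_card (n := 1) (by rw [cw, pow_one])
    have hi : ¬ 5 ∣ (zpowers w).index := fun h => by
      have := card_mul_index (zpowers w)
      rw [cw, hG] at this; omega
    obtain ⟨k, -, k2, k3, -⟩ := H9.exists_card_normalizer_eq_of_simple (fun hc => by
      have := IsSimpleGroup.prime_card (α := G)
      rw [hG] at this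
      norm_num at this) (hP.toSylow hi) cw
    exact k2 (k3.symm.trans ((congrArg₂ relIndex (cent_zp w) rfl).trans (a4.symm.trans e1)))
  have e2 : 2 ∣ e := by
    have := Nat.le_of_dvd (by norm_num) a2
    clear a4
    interval_cases e <;> simp_all
  obtain ⟨t, ht, t1, tt⟩ := exists_invol_of_even (H := 𝐍(zpowers w)) (e2.trans (by
    rw [a4]; exact relIndex_dvd_card _ _))
  have i1 := inv_all h t1 tt w1 wo ht
  have xw : x ∈ 𝐂[w] := mem_cent1.2 c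
  have tx : t * x * t⁻¹ = x⁻¹ := by rw [inv_eq_self_of_mul_self tt]; exact i1 x xw
  have i2 := inv_all h t1 tt x1 xo (mem_norm_of_inv tx)
  have eq : 𝐂[w] = 𝐂[x] := le_antisymm (le_of_inv tt i1 xw)
    (le_of_inv tt i2 (mem_cent1.2 c.symm))
  have e3 := b5 (by norm_num) t (mem_top t) tx
  have d5 := orderOf_dvd_natCard _ (self_mem_cent1 w)
  have d7 := orderOf_dvd_natCard _ xw
  rw [← eq] at b1
  rw [w5] at d5
  rw [x7] at d7
  obtain ⟨k, hk⟩ := Nat.Coprime.mul_dvd_of_dvd_of_dvd (by norm_num) d5 d7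
  have hd := odd_dvd (m := 315) (h.odd_cent w1 wo) ⟨e * n, by rw [← mul_assoc, ← a1]⟩
  rw [hk] at hd a1 b1
  have l1 := Nat.le_of_dvd (by norm_num) a2
  have l2 := Nat.le_of_dvd (by norm_num) b2
  rcases dvd_nine (Nat.dvd_of_mul_dvd_mul_left (k := 35) (by norm_num) hd) with rfl | rfl | rfl <;>
    interval_cases e <;> interval_cases e' <;> omega

theorem l34 [IsSimpleGroup G] (h : CIT G) (hG : Nat.card G = 20160) {z : G} (hz : P6.Inv z)
    (hT : 𝐨(𝐂[z]) = 64) : L34 G := by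
  haveI := Fact.mk Nat.prime_five
  haveI := Fact.mk Nat.prime_seven
  have key : ∀ x : G, orderOf x = 7 → ¬ 5 ∣ 𝐨(𝐂[x]) := fun x x7 h5 => by
    obtain ⟨w, hw⟩ := exists_prime_orderOf_dvd_card' 5 h5
    exact no35 h hG ((orderOf_coe w).trans hw) x7 (mem_cent1.1 w.2).symm
  refine ⟨?_, fun D hD tr => ?_⟩
  · obtain ⟨x, x7⟩ := exists_prime_orderOf_dvd_card' (G := G) 7 (by rw [hG]; norm_num)
    refine ⟨x, x7, fun hc => ?_⟩
    obtain ⟨t, ht⟩ := isConj_iff.1 hc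
    obtain ⟨e, n, b1, b2, b3, -, b5⟩ := num (mem_top x) Nat.prime_seven x7
      (by rw [card_top, hG]; decide)
    rw [top_inf_eq, card_top, hG] at b1
    have e3 := b5 (by norm_num) t (mem_top t) ht
    have d5 := key x x7
    obtain ⟨k, hk⟩ : 7 ∣ 𝐨(𝐂[x]) := x7 ▸ orderOf_dvd_natCard _ (self_mem_cent1 x)
    have hd := odd_dvd (m := 315) (h.odd_cent (x := x) (fun e => by simp [e] at x7) (by rw [x7]; decide))
      ⟨e * n, by rw [← mul_assoc, ← b1]⟩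
    rw [hk] at hd b1 d5
    have l2 := Nat.le_of_dvd (by norm_num) b2
    have k9 : k ∣ 9 := Nat.Coprime.dvd_of_dvd_mul_left
      ((Nat.Prime.coprime_iff_not_dvd Nat.prime_five).2 fun h => d5 (h.mul_left 7)).symm
      (Nat.dvd_of_mul_dvd_mul_left (k := 7) (by norm_num) hd)
    rcases dvd_nine k9 with rfl | rfl | rfl <;> interval_cases e <;> omega
  · have h1 := Nat.card_le_card_of_surjective (fun p : D × 𝐂[z] => (p.1 : G) * p.2) fun g => by
      obtain ⟨d, hd, e⟩ := tr z _ hz (hz.conj g)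
      exact ⟨(⟨d, hd⟩, ⟨d⁻¹ * g, mem_cent1_iff_conj.2 (by
        rw [show d⁻¹ * g * z * (d⁻¹ * g)⁻¹ = d⁻¹ * (g * z * g⁻¹) * d by group, ← e]; group)⟩),
        by simp⟩
    have h2 := odd_dvd (m := 315) hD (by have := card_subgroup_dvd_card D; rwa [hG] at this)
    rw [Nat.card_prod, hT, hG] at h1
    have h3 : 𝐨(D) = 315 := by
      obtain ⟨k, hk⟩ := h2
      rcases k with _ | _ | k
      · omega
      · omega
      · nlinarith
    obtain ⟨H, hH⟩ := H1.exists_isPiHallOf_of_isSolvable {5, 7} (solvable_of_odd hD)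
    obtain ⟨k1, k2, k3⟩ := H1.isPiHallOf_iff.1 hH
    have h4 := H1.card_mul_relIndex k1
    rw [h3] at h4
    have d5 : 5 ∣ 𝐨(H) := ((Nat.Prime.dvd_mul Nat.prime_five).1 (h4 ▸ by norm_num)).resolve_right
      fun h => k3 5 Nat.prime_five h (by simp)
    have d7 : 7 ∣ 𝐨(H) := ((Nat.Prime.dvd_mul Nat.prime_seven).1 (h4 ▸ by norm_num)).resolve_right
      fun h => k3 7 Nat.prime_seven h (by simp)
    have d3 : ¬ 3 ∣ 𝐨(H) := fun h => by simpa using k2 3 Nat.prime_three h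
    obtain ⟨k, hk⟩ := Nat.Coprime.mul_dvd_of_dvd_of_dvd (by norm_num) d5 d7
    have h5 : 𝐨(H) = 35 := by
      rcases dvd_nine (k := k) (Nat.dvd_of_mul_dvd_mul_left (k := 35) (by norm_num)
        ⟨H.relIndex D, by rw [← show 5 * 7 * k = 35 * k from rfl, ← hk, h4]⟩) with rfl | rfl | rfl <;>
        omega
    obtain ⟨x, x7⟩ := exists_prime_orderOf_dvd_card' 7 d7
    rw [← orderOf_coe] at x7
    obtain ⟨e, n, b1, b2, b3, -⟩ := num x.2 Nat.prime_seven x7 (by rw [h5]; decide)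
    refine key x x7 (Dvd.dvd.trans ?_ (FT.card_dvd_of_le (inf_le_right (a := H))))
    rw [h5] at b1
    have l1 := Nat.le_of_dvd (by norm_num) b2
    have l2 : n ≤ 35 := Nat.le_of_dvd (by norm_num) (Dvd.intro_left _ b1.symm)
    obtain ⟨c, hc⟩ : 7 ∣ 𝐨((H ⊓ 𝐂[(x : G)] : Subgroup G)) :=
      x7 ▸ orderOf_dvd_natCard _ (mem_inf.2 ⟨x.2, self_mem_cent1 _⟩)
    rw [hc] at b1 ⊢
    have l3 : c ≤ 5 := Nat.le_of_dvd (by norm_num) ⟨e * n, by nlinarith⟩
    interval_cases c <;> interval_cases e <;> omega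

variable {M₁ M₂ V₁ V₂ T : Subgroup G}

theorem no15 (a : Amal M₁ M₂ V₁ V₂ T 4) (hc : CIT G) {y : G} (hy : y ∈ M₁) (y15 : orderOf y = 15) :
    False := by
  have hq : 3 ≤ 4 := by decide
  obtain ⟨x, hx₁, hx, xp, xo⟩ := a.exists_odd hc hq
  have hZ : Elem (V₁ ⊓ V₂) := a.h₁.elem.mono inf_le_left
  have x3 : orderOf x = 3 := by
    have := (hc.semiReg hZ.pgrp (R := zpowers x) (by rwa [Nat.card_zpowers])).card_dvd
      (zpowers_le_of_mem (a.norm_Z hc hx))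
    rw [Nat.card_zpowers, a.inf] at this
    exact (Nat.prime_dvd_prime_iff_eq xp Nat.prime_three).1 this
  have x1 : x ≠ 1 := fun e => by simp [e] at x3
  obtain ⟨v, hv, v2⟩ := SetLike.not_le_iff_exists.1 a.not_le
  obtain ⟨w, hw, -, w1, -⟩ := a.weyl hc hq hx₁ hx x1 xo hv v2
  obtain ⟨e, n, b1, b2, b3, -, b5⟩ := num hx₁ Nat.prime_three x3 (by rw [a.card_M]; decide)
  have e3 := b5 (by norm_num) w hw w1
  have y3 : orderOf (y ^ 5) = 3 := by rw [orderOf_pow' y (by norm_num), y15]; rfl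
  obtain ⟨m, hm, h1⟩ := (a.isSyl3 x3 hx₁).exists_conj_eq Nat.prime_three
    (a.isSyl3 y3 (pow_mem hy 5))
  have h2 : m * y * m⁻¹ ∈ M₁ ⊓ 𝐂[x] := mem_inf.2 ⟨mul_mem (mul_mem hm hy) (inv_mem hm), by
    rw [← cent_zp, ← h1, cent_conj, conj_mem_conj_iff, cent_zp]
    exact mem_cent1.2 (Commute.self_pow y 5).symm⟩
  have h3 := orderOf_dvd_natCard _ h2
  rw [show orderOf (m * y * m⁻¹) = 15 from ((MulAut.conj m).orderOf_eq y).trans y15] at h3
  rw [a.card_M] at b1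
  have hd := odd_dvd (m := 15) ((hc.odd_cent x1 xo).of_dvd_nat
    (FT.card_dvd_of_le (inf_le_right (a := M₁)))) ⟨e * n, by rw [← mul_assoc, ← b1]⟩
  rw [Nat.dvd_antisymm hd h3] at b1
  have l2 := Nat.le_of_dvd (by norm_num) b2
  interval_cases e <;> omega

theorem pl (a : Amal M₁ M₂ V₁ V₂ T 4) (hc : CIT G) (g : G) : ∃ m ∈ M₁, ∃ n ∈ M₂, ∃ m' ∈ M₁, g = m * n * m' := by
  by_contra! h0
  have hq : 3 ≤ 4 := by decide
  obtain ⟨z, hz, z1⟩ := a.exists_z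
  have mem : ∀ k y, y * y = 1 → Commute (k * z * k⁻¹) y →
      k⁻¹ * y * k⁻¹⁻¹ ∈ V₁ ∨ k⁻¹ * y * k⁻¹⁻¹ ∈ V₂ := fun k y yy e =>
    a.invol_mem hc (a.cent_z hc hq hz z1 ▸ mem_cent1.2
      (by simpa [mul_assoc] using (e.conj k⁻¹).eq)) (conj_sq yy _)
  have A : ∀ x ∈ V₁, x ≠ 1 → ∀ v ∈ V₁, v ≠ 1 → ¬ Commute x (g * v * g⁻¹) :=
    fun x hx x1 v hv v1 e => by
      obtain ⟨m, hm, rfl⟩ := a.h₁.trans hc hz.1 z1 hx x1
      rcases mem _ _ (conj_sq (a.h₁.elem v hv) g) e with h2 | h2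
      · exact h0 m hm 1 (one_mem _) (m⁻¹ * g) (a.ti hc hq hv v1 (by simpa [mul_assoc] using h2))
          (by group)
      · obtain ⟨n, hn, e⟩ := a.h₂.trans hc h2 (conj_ne_one (conj_ne_one v1 _) _) hz.2 z1
        exact h0 m hm n⁻¹ (inv_mem hn) (n * m⁻¹ * g)
          (a.ti hc hq hv v1 (by convert (show z ∈ V₁ from hz.1) using 1; rw [← e]; group)) (by group)
  have B : ∀ x ∈ V₁, x ≠ 1 → ∀ v ∈ V₁, v ≠ 1 → ∀ u, u ≠ 1 → u * u = 1 → Commute u x →
      ¬ Commute u (g * v * g⁻¹) := fun x hx x1 v hv v1 u u1 uu e1 e2 => by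
    obtain ⟨k, rfl⟩ := a.conj_invol hc hq hz z1 u1 uu
    rcases mem _ _ (a.h₁.elem x hx) e1 with h1 | h1
    · exact A _ (conj_mem (a.h₁.normal.2 (inv_mem_iff.1 (a.ti hc hq hx x1 h1))) hz.1) u1 v hv v1 e2
    rcases mem _ _ (conj_sq (a.h₁.elem v hv) g) e2 with h2 | h2
    · refine A x hx x1 _ (conj_mem (a.h₁.normal.2 (inv_mem (a.ti hc hq (g := k⁻¹ * g) hv v1
        (by simpa [mul_assoc] using h2)))) hz.1) (conj_ne_one z1 _) ?_
      simpa [mul_assoc] using e1.symm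
    · exact A x hx x1 v hv v1 (by
        simpa [mul_assoc] using (show Commute _ _ from a.h₂.elem.comm h1 h2).conj k)
  have C : ∀ x ∈ V₁, x ≠ 1 → ∃ c, c * c = 1 ∧ c * x * c = g * z * g⁻¹ ∧ g⁻¹ * c ∈ M₁ ∧ c * g ∈ M₁ :=
    fun x hx x1 => by
      have xx := a.h₁.elem x hx
      have yy := conj_sq (a.h₁.elem z hz.1) g
      obtain ⟨_, cc, e⟩ := exists_invol_conj_of_odd xx yy (Nat.not_even_iff_odd.1 fun e => by
        obtain ⟨_, u1, uu, h1, h2⟩ := exists_invol_commute_of_even xx yy e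
        exact B x hx x1 z hz.1 z1 _ u1 uu h1 h2)
      generalize x * (x * (g * z * g⁻¹)) ^ _ = c at cc e
      have ci := inv_eq_self_of_mul_self cc
      refine ⟨c, cc, e, a.ti hc hq hx x1 ?_, a.ti hc hq hz.1 z1 ?_⟩
      · convert (show z ∈ V₁ from hz.1) using 1
        rw [mul_inv_rev, ci, mul_assoc _ x, mul_assoc _ c, ← mul_assoc x, ← mul_assoc c,
          ← mul_assoc c, e]
        group
      · convert hx using 1
        rw [mul_inv_rev, mul_assoc c g, mul_assoc c, ← mul_assoc _ g⁻¹, ← e]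
        nth_rw 1 [← ci]
        group
  have fix : ∀ t ∈ M₁, t * t = 1 → ∃ x ∈ V₁, x ≠ 1 ∧ Commute t x := fun t ht tt => by
    have h1 := conj_mem (a.h₁.normal.2 ht) hz.1
    by_cases e : z * (t * z * t⁻¹) = 1
    · exact ⟨z, hz.1, z1, mul_inv_eq_iff_eq_mul.1 ((eq_inv_of_mul_eq_one_right e).trans
        (inv_eq_self_of_mul_self (a.h₁.elem z hz.1)))⟩
    · refine ⟨_, mul_mem hz.1 h1, e, ?_⟩
      refine mul_inv_eq_iff_eq_mul.1 (Eq.trans ?_ (a.h₁.elem.comm h1 hz.1))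
      calc _ = t * z * t⁻¹ * (t * t) * z * (t * t)⁻¹ := by group
        _ = _ := by rw [tt]; group
  have hD : Odd 𝐨((M₁ ⊓ M₁ ^ᵍ g : Subgroup G)) := odd_iff_not_dvd.2 fun e => by
    obtain ⟨_, ⟨h1, t, ht, rfl⟩, t1, tt⟩ := exists_invol_of_even e
    obtain ⟨x, hx, x1, e1⟩ := fix _ h1 tt
    obtain ⟨v, hv, v1, e2⟩ := fix t ht ((MulAut.conj g).injective (by rwa [map_mul, map_one]))
    exact B x hx x1 v hv v1 _ t1 tt e1 (e2.conj g)
  have h1 := hc.semiReg a.h₁.elem.pgrp hD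
  have h2 := inf_le_left.trans a.h₁.normal.2 (a := M₁ ⊓ M₁ ^ᵍ g)
  have h4 : V₁.carrier ⊆ insert 1 ((fun k => k * z * k⁻¹) '' (M₁ ⊓ M₁ ^ᵍ g : Subgroup G)) :=
    fun y hy => (eq_or_ne y 1).imp_right fun y1 => by
      obtain ⟨c, cc, e, h1, h2⟩ := C y hy y1
      obtain ⟨d, dd, e', h3, h4⟩ := C z hz.1 z1
      have ci := inv_eq_self_of_mul_self cc
      refine ⟨c * d, ⟨?_, _, mul_mem h1 h4, by simp [mul_assoc]⟩, ?_⟩
      · simpa [ci] using mul_mem (inv_mem h1) h3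
      · simp only [mul_inv_rev, inv_eq_self_of_mul_self dd]
        rw [mul_assoc c, mul_assoc c, ← mul_assoc (d * z), e', ← e]
        nth_rw 1 [← ci]
        group
  have h5 : 𝐨(V₁) ≤ 𝐨((M₁ ⊓ M₁ ^ᵍ g : Subgroup G)) + 1 := (Set.ncard_le_ncard h4).trans
    ((Set.ncard_insert_le _ _).trans (Nat.add_le_add_right Set.ncard_image_le 1))
  have h6 := Nat.le_of_dvd (by rw [a.h₁.card]; decide) (h1.card_dvd h2)
  rw [a.h₁.card] at h5 h6
  obtain ⟨x, hx⟩ := (regular_pq_cyclic Nat.prime_three Nat.prime_five (by omega) a.h₁.ne_bot h2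
    h1).exists_ofOrder_eq_natCard
  rw [← orderOf_coe, show 𝐨((M₁ ⊓ M₁ ^ᵍ g : Subgroup G)) = 15 by omega] at hx
  exact no15 a hc x.2.1 hx

theorem idx_N (a : Amal M₁ M₂ V₁ V₂ T 4) (hc : CIT G) : 𝐍(T).relIndex M₁ = 5 := by
  have hq : 3 ≤ 4 := by decide
  have le := a.norm_le hc hq
  obtain ⟨x, hx₁, hx, xp, xo⟩ := a.exists_odd hc hq
  have h1 := hc.relIndex_dvd (a.h₁.syl.of_le le_normalizer le)
    (a.h₁.elem.mono (inf_le_left (b := V₂))).pgrp (a.norm_Z hc)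
  have h2 := relIndex_mul_relIndex T _ M₁ le_normalizer le
  have h3 := a.h₁.idx
  rw [a.inf] at h1
  rcases (Nat.dvd_prime Nat.prime_three).1 h1 with e | e
  · exact absurd (eq_one_of_odd_of_mem a.h₁.syl.pgrp xo (relIndex_eq_one.1 e hx))
      fun e => by simp [e] at xp; exact Nat.not_prime_one xp
  · rw [e] at h2; omega

theorem idx_le (a : Amal M₁ M₂ V₁ V₂ T 4) (hc : CIT G) : M₁.index ≤ 21 := by
  classical
  have hq : 3 ≤ 4 := by decide
  haveI := Fintype.ofFinite (M₁ ⧸ 𝐍(T).subgroupOf M₁)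
  haveI := Fintype.ofFinite (M₂ ⧸ 𝐍(T).subgroupOf M₂)
  haveI := Fintype.ofFinite (G ⧸ M₁)
  have c1 : Fintype.card (M₁ ⧸ 𝐍(T).subgroupOf M₁) = 5 := by
    rw [← Nat.card_eq_fintype_card]; exact idx_N a hc
  have c2 : Fintype.card (M₂ ⧸ 𝐍(T).subgroupOf M₂) = 5 := by
    rw [← Nat.card_eq_fintype_card]; exact idx_N a.symm hc
  let f : (M₁ ⧸ 𝐍(T).subgroupOf M₁) × (M₂ ⧸ 𝐍(T).subgroupOf M₂) → G ⧸ M₁ :=
    fun p => (((p.1.out : M₁) : G) * (p.2.out : M₂) : G)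
  have h1 : (Finset.univ : Finset (G ⧸ M₁)) ⊆ insert ((1 : G) : G ⧸ M₁)
      ((Finset.univ ×ˢ Finset.univ.erase ((1 : M₂) : M₂ ⧸ 𝐍(T).subgroupOf M₂)).image f) :=
    fun g _ => by
      obtain ⟨g, rfl⟩ := QuotientGroup.mk_surjective g
      obtain ⟨m, hm, n, hn, m', hm', rfl⟩ := pl a hc g
      obtain ⟨b, hb⟩ := QuotientGroup.mk_out_eq_mul (𝐍(T).subgroupOf M₁) ⟨m, hm⟩
      have bn : ((b : M₁) : G)⁻¹ * n ∈ M₂ := mul_mem (inv_mem (a.symm.norm_le hc hq b.2)) hn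
      obtain ⟨d, hd⟩ := QuotientGroup.mk_out_eq_mul (𝐍(T).subgroupOf M₂) ⟨_, bn⟩
      rw [Finset.mem_insert, Finset.mem_image]
      by_cases e : (((⟨_, bn⟩ : M₂) : M₂ ⧸ 𝐍(T).subgroupOf M₂)) = (1 : M₂)
      · have h2 : (((b : M₁) : G)⁻¹ * n)⁻¹ * 1 ∈ 𝐍(T) :=
          (QuotientGroup.eq (s := 𝐍(T).subgroupOf M₂)).1 e
        have h3 : n ∈ M₁ := (mul_mem_cancel_left (inv_mem b.1.2)).1
          (inv_mem_iff.1 (a.norm_le hc hq (by simpa using h2)))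
        exact Or.inl (QuotientGroup.eq.2 (by simpa using inv_mem (mul_mem (mul_mem hm h3) hm')))
      · refine Or.inr ⟨(((⟨m, hm⟩ : M₁) : M₁ ⧸ _), ((⟨_, bn⟩ : M₂) : M₂ ⧸ _)), by simp [e], ?_⟩
        simp only [f, hb, hd, coe_mul]
        refine QuotientGroup.eq.2 ?_
        simpa [mul_assoc] using mul_mem (inv_mem (a.norm_le hc hq d.2)) hm'
  have h2 := (Finset.card_le_card h1).trans ((Finset.card_insert_le _ _).trans
    (Nat.add_le_add_right Finset.card_image_le 1))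
  rw [Finset.card_product, Finset.card_erase_of_mem (Finset.mem_univ _), Finset.card_univ,
    Finset.card_univ, Finset.card_univ, c1, c2, ← Nat.card_eq_fintype_card] at h2
  exact h2

theorem idx_ge (a : Amal M₁ M₂ V₁ V₂ T 4) (hc : CIT G) : 20 ≤ M₁.index := by
  have hq : 3 ≤ 4 := by decide
  have le := a.norm_le hc hq
  obtain ⟨n, hn, n1⟩ : ∃ n ∈ M₂, n ∉ M₁ := by
    by_contra! h
    have h1 := idx_N a.symm hc
    rw [relIndex_eq_one.2 fun x hx => a.norm_T (h x hx) hx] at h1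
    omega
  have VN : V₁ ≤ 𝐍(T) := a.h₁.le.trans le_normalizer
  have h1 : M₁ ^ᵍ n ⊓ M₁ ≤ 𝐍(T) := fun k hk =>
    a.norm_T hk.2 (a.line hc hq hk.2 hn n1 (mem_conj.1 hk.1))
  have h2 : M₁ ^ᵍ n ⊓ M₁ ⊓ V₁ ≤ V₁ ⊓ V₂ := fun v hv => by
    refine ⟨hv.2, ?_⟩
    by_cases v1 : v = 1
    · rw [v1]; exact one_mem _
    have vv := a.h₁.elem v hv.2
    have e : n⁻¹ * v * n = n⁻¹ * v * n⁻¹⁻¹ := by rw [inv_inv]
    have h3 : n⁻¹ * v * n ∈ M₁ := mem_conj.1 hv.1.1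
    have h4 : n⁻¹ * v * n ∈ M₂ :=
      mul_mem (mul_mem (inv_mem hn) (a.h₂.syl.le (a.h₁.le hv.2))) hn
    have ss : n⁻¹ * v * n * (n⁻¹ * v * n) = 1 := by rw [e]; exact conj_sq vv _
    rcases a.invol_mem hc (a.mem_T (a.norm_T h3 h4) h3 (isPGroup_zpowers_of_sq ss)) ss with h | h
    · exact absurd (inv_mem_iff.1 (a.ti hc hq hv.2 v1 (e ▸ h))) n1
    · simpa [mul_assoc] using conj_mem (a.h₂.normal.2 hn) h
  have h3 : (V₁ ⊓ V₂).relIndex V₁ = 4 := by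
    have := H1.card_mul_relIndex (inf_le_left (a := V₁) (b := V₂))
    rw [a.inf, a.h₁.card] at this
    omega
  have h4 : 4 ≤ (M₁ ^ᵍ n ⊓ M₁).relIndex 𝐍(T) := by
    refine le_trans ?_ (relIndex_le_of_le_right VN index_ne_zero_of_finite)
    rw [← inf_relIndex_right _ V₁, ← h3]
    exact relIndex_le_of_le_left h2 index_ne_zero_of_finite
  have h5 := relIndex_mul_relIndex _ _ M₁ h1 le
  rw [idx_N a hc, inf_relIndex_right] at h5
  have h6 := relIndex_le_of_le_right (H := M₁ ^ᵍ n) (le_top (a := M₁)) index_ne_zero_of_finite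
  have h7 := card_mul_index (M₁ ^ᵍ n)
  rw [card_conj, ← card_mul_index M₁] at h7
  rw [relIndex_top_right, Nat.eq_of_mul_eq_mul_left Nat.card_pos h7] at h6
  omega

theorem card_G (a : Amal M₁ M₂ V₁ V₂ T 4) (hc : CIT G) : Nat.card G = 20160 := by
  have h1 := idx_le a hc
  have h2 := idx_ge a hc
  have h3 := (a.isSyl hc (by decide)).ndvd
  rw [relIndex_top_right] at h3
  have h4 : ¬ 2 ∣ M₁.index := fun h => h3 (h.trans (index_dvd_of_le a.h₁.syl.le))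
  rw [← card_mul_index M₁, a.card_M, show M₁.index = 21 by omega]

theorem not_E8 {S : Subgroup G} {x z s : G} (h : Max2 S x z s) : ¬ E8 (⊤ : Subgroup G) := by
  rintro ⟨E, -, hE, hc⟩
  obtain ⟨g, -, hg⟩ := h.syl.exists_conj_le Nat.prime_two (IsPGroup.of_card hc) le_top
  have el : Elem (E ^ᵍ g) := Elem.conj (fun a ha => (sq a).symm.trans (hE.2 a ha)) g
  have h1 : zpowers x ⊓ E ^ᵍ g ≤ zpowers z := fun y hy => by
    rcases h.uniq hy.1 (el y hy.2) with rfl | rfl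
    exacts [one_mem _, mem_zpowers _]
  have h2 := Nat.le_of_dvd Nat.card_pos (FT.card_dvd_of_le h1)
  have h3 := relIndex_le_of_le_right (H := zpowers x) hg index_ne_zero_of_finite
  have h4 := H1.card_mul_relIndex (inf_le_right (a := zpowers x) (b := E ^ᵍ g))
  rw [Nat.card_zpowers, orderOf_two h.z1 h.zz] at h2
  rw [h.relIndex] at h3
  rw [inf_relIndex_right, card_conj, hc] at h4
  nlinarith

end Ct

open Ct in
theorem citStmt : CitStmt.{u} := by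
  intro X _ _ h hO hns h8
  rcases h.glob hO hns with ⟨Q, H, t, hz⟩ | ⟨M₁, M₂, V₁, V₂, T, q, a⟩
  · exact Or.inl ⟨Q ⊔ H, fun e => hz.t_notMem (e ▸ mem_top t), P6.se_quot (ZT.isSyl hz).1 le_sup_left
      fun s hs i g hg => hz.ti hs i.ne (mem_sup_left hg)⟩
  by_cases hq : 3 ≤ q
  · obtain rfl := a.eq_four h hq
    haveI := a.simple h hq
    obtain ⟨z, hz, z1⟩ := a.exists_z
    exact Or.inr (l34 h (card_G a h) ⟨z1, a.h₁.elem z hz.1⟩ (by rw [a.cent_z h hq hz z1, a.card_T]))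
  · obtain ⟨t, u, hs⟩ := a.selfCent h (by have := a.h₁.two_le; omega)
    obtain ⟨S, x, z, s, hm⟩ := hs.exists_max2
    exact absurd h8 (not_E8 hm)

end Cfsg.Agent.P29
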