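/-
P29, chapter End: `PSL₂(q)`, `q` odd, and the order 2520.
-/
import Cfsg.Agent.P29.Defs
import Cfsg.Agent.P4.PSL2
import Cfsg.Agent.S4304

set_option autoImplicit false
set_option linter.unusedSectionVars false

namespace Cfsg.Agent.P29

open Subgroup MulAction Cfsg Cfsg.Agent Cfsg.Agent.FT Cfsg.Agent.P6
open scoped Pointwise

universe u

namespace En

variable {X : Type u} [Group X] [Finite X]

/-- An automorphism of order at most 2 whose fixed elements of odd order form a subgroup. -/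
structure Cf (σ : MulAut X) (Θ : Subgroup X) : Prop where
  sq : σ * σ = 1
  odd : Odd 𝐨(Θ)
  mem : ∀ x, x ∈ Θ ↔ σ x = x ∧ Odd (orderOf x)

variable {σ : MulAut X} {Θ : Subgroup X}

theorem Cf.ord (h : Cf σ Θ) : ∃ k, orderOf σ = 2 ^ k := by
  have : orderOf σ ∣ 2 := orderOf_dvd_of_pow_eq_one (by rw [pow_two, h.sq])
  rcases (Nat.dvd_prime Nat.prime_two).1 this with e | e
  · exact ⟨0, e⟩
  · exact ⟨1, e⟩

theorem aut_smul {p : ℕ} (σ : MulAut X) (g : X) (Q : Sylow p X) : σ • g • Q = σ g • σ • Q := by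
  rw [Sylow.smul_def, Sylow.smul_def, smul_smul, smul_smul]
  congr 1
  ext x
  simp

theorem mem_aut_smul {p : ℕ} (σ : MulAut X) {g : X} {Q : Sylow p X} (hg : g ∈ (Q : Subgroup X)) :
    σ g ∈ ((σ • Q : Sylow p X) : Subgroup X) := by
  rw [Sylow.pointwise_smul_def]
  exact smul_mem_pointwise_smul g σ _ hg

section PSL
variable {p q : ℕ} [hp : Fact p.Prime]

/-- The data used of `PSL₂(q)`. -/
structure Ps (X : Type u) [Group X] (p q : ℕ) : Prop where
  p2 : p ≠ 2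
  pow : ∃ k, q = p ^ (k + 1)
  card : 2 * Nat.card X = q * (q - 1) * (q + 1)
  cent : ∀ c : X, orderOf c = p → (∀ a ∈ 𝐂[c], ∀ b ∈ 𝐂[c], Commute a b) ∧ 𝐨(𝐂[c]) = q

theorem Ps.two_le (h : Ps X p q) : 3 ≤ q := by
  obtain ⟨k, rfl⟩ := h.pow
  have h1 := hp.out.two_le
  have h2 := h.p2
  calc 3 ≤ p := by omega
    _ ≤ p ^ (k + 1) := Nat.le_self_pow (by omega) p

theorem Ps.odd (h : Ps X p q) : Odd q := by
  obtain ⟨k, rfl⟩ := h.pow
  exact (hp.out.odd_of_ne_two h.p2).pow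

theorem Ps.index (h : Ps X p q) (P : Sylow p X) :
    𝐨((P : Subgroup X)) = q ∧ 2 * (P : Subgroup X).index = (q - 1) * (q + 1) := by
  have h3 := h.two_le
  obtain ⟨k, hk⟩ := h.pow
  have h1 := (P : Subgroup X).card_mul_index
  obtain ⟨j, hj⟩ := IsPGroup.iff_card.1 P.isPGroup'
  have hpq : p ∣ q := hk ▸ dvd_pow_self p (by omega)
  have hc : (q * (q - 1) * (q + 1)) = p ^ j * (2 * (P : Subgroup X).index) := by
    rw [← h.card, ← h1, hj]; ring
  have n1 : ¬ p ∣ (q - 1) * (q + 1) := by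
    intro hd
    rcases (Nat.Prime.dvd_mul hp.out).1 hd with hd | hd
    · have : p ∣ q - (q - 1) := Nat.dvd_sub hpq hd
      rw [show q - (q - 1) = 1 by omega] at this
      exact hp.out.one_lt.ne' (Nat.dvd_one.1 this)
    · have : p ∣ 1 := (Nat.dvd_add_right hpq).1 hd
      exact hp.out.one_lt.ne' (Nat.dvd_one.1 this)
  have n2 : ¬ p ∣ 2 * (P : Subgroup X).index := by
    intro hd
    rcases (Nat.Prime.dvd_mul hp.out).1 hd with hd | hd
    · exact h.p2 ((Nat.prime_dvd_prime_iff_eq hp.out Nat.prime_two).1 hd)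
    · exact P.not_dvd_index hd
  have e : j = k + 1 := by
    have a1 : p ^ j ∣ p ^ (k + 1) := by
      refine (((Nat.Prime.coprime_iff_not_dvd hp.out).2 n1).pow_left j).dvd_of_dvd_mul_right ?_
      rw [← hk, ← mul_assoc, hc]; exact dvd_mul_right _ _
    have a2 : p ^ (k + 1) ∣ p ^ j := by
      refine (((Nat.Prime.coprime_iff_not_dvd hp.out).2 n2).pow_left _).dvd_of_dvd_mul_right ?_
      rw [← hc, ← hk, mul_assoc]; exact dvd_mul_right _ _
    exact Nat.pow_right_injective hp.out.two_le (Nat.dvd_antisymm a1 a2)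
  rw [e, ← hk, mul_assoc] at hc
  exact ⟨by rw [hj, e, hk], (Nat.eq_of_mul_eq_mul_left (by omega) hc).symm⟩

theorem exists_pow_ord {P : Subgroup X} (hP : IsPGroup p P) {x : X} (hx : x ∈ P) (h1 : x ≠ 1) :
    ∃ n : ℕ, orderOf (x ^ n) = p := by
  obtain ⟨k, hk⟩ := (IsPGroup.iff_orderOf.1 hP) ⟨x, hx⟩
  rw [Subgroup.orderOf_mk] at hk
  have hk0 : k ≠ 0 := fun e => h1 (orderOf_eq_one_iff.1 (by rw [hk, e, pow_zero]))
  have hd : p ∣ orderOf x := hk ▸ dvd_pow_self p hk0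
  exact ⟨orderOf x / p, orderOf_pow_orderOf_div (orderOf_pos x).ne' hd⟩

theorem Ps.eq_cent (h : Ps X p q) (P : Sylow p X) {c : X} (hc : c ∈ (P : Subgroup X))
    (ho : orderOf c = p) : (P : Subgroup X) = 𝐂[c] := by
  have hq := (h.index P).1
  have h3 := h.two_le
  have : Nontrivial (P : Subgroup X) := Finite.one_lt_card_iff_nontrivial.1 (by omega)
  have := P.isPGroup'.center_nontrivial
  obtain ⟨z, hz⟩ := exists_ne (1 : center (P : Subgroup X))
  have hz1 : ((z : (P : Subgroup X)) : X) ≠ 1 := fun e => hz (Subtype.ext (Subtype.ext e))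
  obtain ⟨n, hn⟩ := exists_pow_ord P.isPGroup' (z : (P : Subgroup X)).2 hz1
  have hle : (P : Subgroup X) ≤ 𝐂[((z : (P : Subgroup X)) : X) ^ n] := fun g hg => by
    have : Commute ((z : (P : Subgroup X)) : X) g :=
      (congrArg Subtype.val (mem_center_iff.1 z.2 ⟨g, hg⟩)).symm
    exact mem_cent1.2 (this.pow_left n)
  refine eq_of_le_of_card_ge (fun g hg => mem_cent1.2 ?_) (by rw [hq, (h.cent c ho).2])
  exact (h.cent _ hn).1 c (hle hc) g (hle hg)

theorem Ps.ti (h : Ps X p q) {P Q : Sylow p X} {x : X} (hP : x ∈ (P : Subgroup X))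
    (hQ : x ∈ (Q : Subgroup X)) (h1 : x ≠ 1) : P = Q := by
  obtain ⟨n, hn⟩ := exists_pow_ord P.isPGroup' hP h1
  exact Sylow.ext ((h.eq_cent P (pow_mem hP n) hn).trans (h.eq_cent Q (pow_mem hQ n) hn).symm)

theorem Ps.semi (h : Ps X p q) {P Q : Sylow p X} {x : X} (hP : x ∈ (P : Subgroup X))
    (hQ : x • Q = Q) (h1 : x ≠ 1) : P = Q := by
  have : x ∈ (P : Subgroup X) ⊓ (Q : Subgroup X) := by
    rw [← P.isPGroup'.inf_normalizer_sylow Q]
    exact ⟨hP, Sylow.smul_eq_iff_mem_normalizer.1 hQ⟩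
  exact h.ti hP this.2 h1

theorem self_smul {P : Sylow p X} {x : X} (hP : x ∈ (P : Subgroup X)) : x • P = P :=
  Sylow.smul_eq_iff_mem_normalizer.2 (le_normalizer hP)

theorem Ps.card_syl [IsSimpleGroup X] (h : Ps X p q) (hX : ¬ IsMulCommutative X) :
    Nat.card (Sylow p X) = q + 1 := by
  obtain ⟨P⟩ : Nonempty (Sylow p X) := inferInstance
  obtain ⟨hq, hi⟩ := h.index P
  have h3 := h.two_le
  have hd : p ∣ Nat.card X := by
    obtain ⟨k, hk⟩ := h.pow
    exact (hk ▸ dvd_pow_self p (by omega) : p ∣ q).trans (hq ▸ card_subgroup_dvd_card _)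
  have n1 := H9.card_sylow_ne_one_of_simple hX hd
  have hdv : q ∣ {Q : Sylow p X | Q ≠ P}.ncard := by
    refine H9.dvd_ncard_of_invariant' (P : Subgroup X) _ (fun g hg Q hQ e => hQ ?_)
      (fun Q hQ => ?_)
    · rw [← self_smul hg] at e
      exact (smul_left_cancel_iff g).1 e
    · have : (stabilizer X Q).subgroupOf (P : Subgroup X) = ⊥ := by
        rw [eq_bot_iff]
        intro x hx
        by_contra hx1
        exact hQ (h.semi x.2 hx (fun e => hx1 (Subtype.ext e))).symm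
      rw [relIndex, this, index_bot, hq]
  have hn : {Q : Sylow p X | Q ≠ P}.ncard + 1 = Nat.card (Sylow p X) := by
    have : {Q : Sylow p X | Q ≠ P} = {P}ᶜ := by ext; simp
    rw [this, ← Set.ncard_singleton P, add_comm, Set.ncard_add_ncard_compl]
  obtain ⟨k, hk⟩ := hdv
  obtain ⟨d, hd⟩ := P.card_dvd_index
  rw [hk] at hn
  rw [hd, ← hn] at hi
  obtain ⟨m, rfl⟩ : ∃ m, q = m + 1 := ⟨q - 1, by omega⟩
  rw [Nat.add_sub_cancel] at hi
  have k0 : k ≠ 0 := by rintro rfl; omega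
  have hdv : m + 1 ∣ 2 * d + 1 := by
    have e : (m + 1) * (2 * k * d) + (2 * d + 1) = (m + 1) * (m + 1) := by nlinarith
    exact (Nat.dvd_add_right (dvd_mul_right _ _)).1 (e ▸ dvd_mul_right _ _)
  have hle := Nat.le_of_dvd (by omega) hdv
  have : k = 1 := by
    by_contra hk1
    have k2 : 2 ≤ k := by omega
    have a1 : ((m + 1) * 2 + 1) * m ≤ ((m + 1) * k + 1) * (2 * d) :=
      Nat.mul_le_mul (by nlinarith) (by omega)
    nlinarith
  rw [← hn, this]; ring

theorem Ps.trans [IsSimpleGroup X] (h : Ps X p q) (hX : ¬ IsMulCommutative X)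
    {P Q R : Sylow p X} (hQ : Q ≠ P) (hR : R ≠ P) : ∃ g ∈ (P : Subgroup X), g • Q = R := by
  let f : ↥(P : Subgroup X) → {Q : Sylow p X | Q ≠ P} := fun g => ⟨(g : X) • Q, fun e => hQ
    ((smul_left_cancel_iff (g : X)).1 (e.trans (self_smul g.2).symm))⟩
  have hinj : Function.Injective f := fun a b e => by
    have e1 : (a : X) • Q = (b : X) • Q := congrArg Subtype.val e
    by_contra hab
    refine hQ (h.semi (x := (b : X)⁻¹ * a) (mul_mem (inv_mem b.2) a.2) ?_ ?_).symm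
    · rw [mul_smul, e1, inv_smul_smul]
    · exact fun e2 => hab (Subtype.ext (inv_mul_eq_one.1 e2).symm)
  have hn : {Q : Sylow p X | Q ≠ P}.ncard + 1 = Nat.card (Sylow p X) := by
    have : {Q : Sylow p X | Q ≠ P} = {P}ᶜ := by ext; simp
    rw [this, ← Set.ncard_singleton P, add_comm, Set.ncard_add_ncard_compl]
  rw [h.card_syl hX] at hn
  have hb : Function.Bijective f := by
    refine (Nat.bijective_iff_injective_and_card f).2 ⟨hinj, ?_⟩
    rw [(h.index P).1, Nat.card_coe_set_eq]; omega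
  obtain ⟨g, hg⟩ := hb.2 ⟨R, hR⟩
  exact ⟨g, g.2, congrArg Subtype.val hg⟩

theorem Ps.trans' [IsSimpleGroup X] (h : Ps X p q) (hX : ¬ IsMulCommutative X) (c : Cf σ Θ)
    {P Q R : Sylow p X} (hQ : Q ≠ P) (hR : R ≠ P) (fP : σ • P = P) (fQ : σ • Q = Q)
    (fR : σ • R = R) : ∃ g ∈ Θ, g • Q = R := by
  obtain ⟨g, hg, e⟩ := h.trans hX hQ hR
  have hg' : σ g ∈ (P : Subgroup X) := fP ▸ mem_aut_smul σ hg
  have e' : σ g • Q = R := by rw [← fR, ← e, aut_smul, fQ]
  refine ⟨g, (c.mem g).2 ⟨?_, ?_⟩, e⟩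
  · by_contra hne
    refine hQ (h.semi (x := g⁻¹ * σ g) (mul_mem (inv_mem hg) hg') ?_ ?_).symm
    · rw [mul_smul, e', ← e, inv_smul_smul]
    · exact fun e2 => hne (inv_mul_eq_one.1 e2).symm
  · have : Odd 𝐨((P : Subgroup X)) := (h.index P).1 ▸ h.odd
    exact odd_orderOf_of_mem this hg

theorem Ps.false [IsSimpleGroup X] (h : Ps X p q) (hX : ¬ IsMulCommutative X) (c : Cf σ Θ)
    {y : X} (hy : orderOf y = p) (fy : σ y = y) : False := by
  have y1 : y ≠ 1 := fun e => hp.out.one_lt.ne (by rw [← hy, e, orderOf_one])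
  obtain ⟨P, hP⟩ := (IsPGroup.of_card (n := 1) (G := zpowers y)
    (by rw [Nat.card_zpowers, hy, pow_one])).exists_le_sylow
  have yP : y ∈ (P : Subgroup X) := hP (mem_zpowers y)
  have fP : σ • P = P := h.ti (fy ▸ mem_aut_smul σ yP) yP y1
  obtain ⟨k, hk⟩ := c.ord
  have hev := H9.card_modEq_ncard_fixedBy (Ω := Sylow p X) hk
  rw [h.card_syl hX] at hev
  have hodd := h.odd
  have he : Even (fixedBy (Sylow p X) σ).ncard := by
    rw [Nat.even_iff]; rw [Nat.odd_iff] at hodd; unfold Nat.ModEq at hev; omega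
  obtain ⟨Q, fQ, hQ⟩ : ∃ Q, σ • Q = Q ∧ Q ≠ P := by
    by_contra hn
    push Not at hn
    have : fixedBy (Sylow p X) σ = {P} := by
      ext Q; exact ⟨fun hQ => hn Q hQ, fun hQ => by rw [hQ]; exact fP⟩
    rw [this, Set.ncard_singleton] at he
    exact absurd he (by decide)
  have yΘ : y ∈ Θ := (c.mem y).2 ⟨fy, hy ▸ hp.out.odd_of_ne_two h.p2⟩
  have fix : ∀ g ∈ Θ, ∀ R : Sylow p X, σ • R = R → σ • g • R = g • R := fun g hg R hR => by
    rw [aut_smul, ((c.mem g).1 hg).1, hR]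
  have horb : orbit Θ Q = fixedBy (Sylow p X) σ := by
    ext R
    refine ⟨fun ⟨g, hg⟩ => hg ▸ fix g g.2 Q fQ, fun fR => ?_⟩
    by_cases hR : R = P
    · have n1 : y • Q ≠ Q := fun e => hQ (h.semi yP e y1).symm
      obtain ⟨g, hg, e⟩ := h.trans' hX c n1 hQ.symm fQ (fix y yΘ Q fQ) fP
      exact ⟨⟨g * y, mul_mem hg yΘ⟩, by rw [hR, ← e, ← mul_smul]; rfl⟩
    · obtain ⟨g, hg, e⟩ := h.trans' hX c hQ hR fP fQ fR
      exact ⟨⟨g, hg⟩, e⟩
  rw [← horb, ← index_stabilizer] at he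
  exact (Nat.not_even_iff_odd.2 (c.odd.of_dvd_nat (index_dvd_card _))) he

end PSL

theorem Cf.exists_inv (c : Cf σ Θ) (h2 : 2 ∣ Nat.card X) : ∃ t : X, orderOf t = 2 ∧ σ t = t := by
  obtain ⟨k, hk⟩ := c.ord
  have hev := H9.card_modEq_ncard_fixedBy (Ω := X) hk
  have hd : 2 ∣ 𝐨(σ.toMonoidHom.eqLocus (MonoidHom.id X)) := by
    have : 𝐨(σ.toMonoidHom.eqLocus (MonoidHom.id X)) = (fixedBy X σ).ncard := rfl
    rw [this]
    exact (hev.dvd_iff dvd_rfl).1 h2
  obtain ⟨t, ht⟩ := exists_prime_orderOf_dvd_card' 2 hd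
  exact ⟨t, by rw [orderOf_coe, ht], t.2⟩

theorem not36 [IsSimpleGroup X] (hX : ¬ IsMulCommutative X) (hc : Nat.card X = 2520)
    (hn : Nat.card (Sylow 7 X) = 36) : False := by
  have : Fact (Nat.Prime 7) := ⟨by norm_num⟩
  have : Fact (Nat.Prime 5) := ⟨by norm_num⟩
  obtain ⟨P⟩ : Nonempty (Sylow 7 X) := inferInstance
  have : FaithfulSMul X (Sylow 7 X) := H9.faithfulSMul_sylow (by rw [hn]; norm_num)
  have hP : Nat.card P = 7 := H9.card_sylow_eq_of_not_sq_dvd P (by rw [hc]; norm_num)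
    (by rw [hc]; norm_num)
  have hN : 𝐨(𝐍((P : Subgroup X))) = 70 := by
    have h1 := (𝐍((P : Subgroup X))).card_mul_index
    have h2 : (𝐍((P : Subgroup X))).index = 36 := by
      rw [← hn]; exact P.card_eq_index_normalizer.symm
    rw [h2, hc] at h1; omega
  obtain ⟨k, hk1, hk2, -, hk⟩ := H9.exists_card_normalizer_eq_of_simple hX P hP
  have h7 : 7 ∣ 𝐨(𝐂((P : Subgroup X))) := by
    have : IsCyclic (P : Subgroup X) := isCyclic_of_prime_card hP
    have := FT.card_dvd_of_le (P : Subgroup X).le_centralizer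
    rwa [hP] at this
  have hC : 𝐨(𝐂((P : Subgroup X))) = 35 := by
    have : k ≤ 6 := Nat.le_of_dvd (by norm_num) hk1
    rw [hN] at hk
    interval_cases k <;> omega
  obtain ⟨c, hc'⟩ := exists_prime_orderOf_dvd_card' (G := P) 7 hP.symm.dvd
  have hco : orderOf (c : X) = 7 ^ 1 := by rw [orderOf_coe, hc', pow_one]
  have c1 : (c : X) ≠ 1 := fun e => by rw [e, orderOf_one] at hco; omega
  have fixP : ∀ r ∈ 𝐍((P : Subgroup X)), r • P = P := fun r hr =>
    Sylow.smul_eq_iff_mem_normalizer.2 hr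
  have f7 : ∀ r ∈ 𝐂((P : Subgroup X)), orderOf r = 7 → r ∈ (P : Subgroup X) := fun r hr ho => by
    have hz : IsPGroup 7 (zpowers r) :=
      IsPGroup.of_card (n := 1) (by rw [Nat.card_zpowers, ho, pow_one])
    have := hz.inf_normalizer_sylow P
    have h1 : r ∈ zpowers r ⊓ (P : Subgroup X) := by
      rw [← this]; exact ⟨mem_zpowers r, centralizer_le_normalizer _ hr⟩
    exact h1.2
  have f5 : ∀ w ∈ 𝐂((P : Subgroup X)), orderOf w = 5 → fixedBy (Sylow 7 X) w = {P} := by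
    intro w hw ho
    have w1 : w ≠ 1 := fun e => by rw [e, orderOf_one] at ho; omega
    have hP' : P ∈ fixedBy (Sylow 7 X) w := fixP w (centralizer_le_normalizer _ hw)
    have h1 := H9.ncard_fixedBy_modEq_of_commute (Ω := Sylow 7 X) hco
      (show Commute w c from (hw c c.2).symm)
    rw [H9.fixedBy_sylow_eq_singleton P hP c.2 c1, Set.inter_eq_right.2
      (Set.singleton_subset_iff.2 hP'), Set.ncard_singleton] at h1
    have h3 := H9.ncard_fixedBy_lt (Ω := Sylow 7 X) w1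
    have h4 := H9.card_modEq_ncard_fixedBy (Ω := Sylow 7 X) (q := 5) (k := 1) (u := w) ho
    rw [hn] at h3 h4
    unfold Nat.ModEq at h1 h4
    obtain ⟨a, ha⟩ := Set.ncard_eq_one.1 (show (fixedBy (Sylow 7 X) w).ncard = 1 by omega)
    rw [ha] at hP' ⊢
    rw [hP']
  have pw : ∀ r ∈ 𝐂((P : Subgroup X)), r ≠ 1 →
      ∃ n : ℕ, orderOf (r ^ n) = 5 ∨ orderOf (r ^ n) = 7 := fun r hr r1 => by
    obtain ⟨s, hs, hd⟩ := Nat.exists_prime_and_dvd (fun e => r1 (orderOf_eq_one_iff.1 e))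
    have h1 : s ∣ 5 * 7 := hd.trans (by have := orderOf_dvd_natCard _ hr; rwa [hC] at this)
    refine ⟨orderOf r / s, ?_⟩
    rw [orderOf_pow_orderOf_div (orderOf_pos r).ne' hd]
    rcases (Nat.Prime.dvd_mul hs).1 h1 with h | h
    · exact Or.inl ((Nat.prime_dvd_prime_iff_eq hs (by norm_num)).1 h)
    · exact Or.inr ((Nat.prime_dvd_prime_iff_eq hs (by norm_num)).1 h)
  have free : ∀ r ∈ 𝐂((P : Subgroup X)), ∀ Q : Sylow 7 X, Q ≠ P → r • Q = Q → r = 1 := by
    intro r hr Q hQ e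
    by_contra r1
    obtain ⟨n, hn⟩ := pw r hr r1
    have e' : Q ∈ fixedBy (Sylow 7 X) (r ^ n) :=
      H9.smul_eq_of_mem_zpowers e (pow_mem (mem_zpowers r) n)
    rcases hn with hn | hn
    · rw [f5 _ (pow_mem hr n) hn] at e'; exact hQ e'
    · rw [H9.fixedBy_sylow_eq_singleton P hP (f7 _ (pow_mem hr n) hn)
        (fun e => by rw [e, orderOf_one] at hn; omega)] at e'
      exact hQ e'
  obtain ⟨t, ht⟩ := exists_prime_orderOf_dvd_card' (G := 𝐍((P : Subgroup X))) 2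
    (by rw [hN]; norm_num)
  have hto : orderOf (t : X) = 2 := by rw [orderOf_coe, ht]
  have tC : (t : X) ∉ 𝐂((P : Subgroup X)) := fun h => by
    have := orderOf_dvd_natCard _ h
    rw [hto, hC] at this; omega
  have tP : ∀ r ∈ (P : Subgroup X), (t : X) * r * (t : X)⁻¹ = r → r = 1 := fun r hr e => by
    by_contra r1
    have hz : zpowers r = (P : Subgroup X) := by
      refine eq_of_le_of_card_ge (zpowers_le.2 hr) ?_
      have h1 := orderOf_dvd_natCard _ hr
      rw [hP] at h1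
      rcases (Nat.dvd_prime (by norm_num)).1 h1 with h | h
      · exact absurd (orderOf_eq_one_iff.1 h) r1
      · rw [Nat.card_zpowers, h, hP]
    refine tC fun g hg => ?_
    have hg' : g ∈ zpowers r := hz ▸ hg
    obtain ⟨m, rfl⟩ := mem_zpowers_iff.1 hg'
    exact ((show Commute (t : X) r from mul_inv_eq_iff_eq_mul.1 e).zpow_right m).symm
  have h4 := H9.four_dvd_of_sq_eq_one (Ω := Sylow 7 X) (H9.commutator_eq_top_of_simple hX)
    (t := (t : X)) (by rw [← hto, pow_orderOf_eq_one])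
  have hPt : P ∈ fixedBy (Sylow 7 X) (t : X) := fixP t t.2
  have hA := Set.ncard_sdiff_singleton_add_one hPt
  have b7 := H9.ncard_mul_card_le (Ω := Sylow 7 X) t.2 tP (fixedBy (Sylow 7 X) (t : X) \ {P})
    (fun a ha => ha.1) (fun a ha r hr e => free r (by
      have : IsCyclic (P : Subgroup X) := isCyclic_of_prime_card hP
      exact (P : Subgroup X).le_centralizer hr) a ha.2 e)
  rw [hn] at h4
  rw [hn, hP] at b7
  by_cases hw : ∃ w ∈ 𝐂((P : Subgroup X)), orderOf w = 5 ∧ Commute (t : X) w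
  · obtain ⟨w, hw, ho, hcm⟩ := hw
    have h1 := H9.ncard_fixedBy_modEq_of_commute (Ω := Sylow 7 X) (q := 5) (k := 1) ho hcm
    rw [f5 w hw ho, Set.inter_eq_right.2 (Set.singleton_subset_iff.2 hPt),
      Set.ncard_singleton] at h1
    unfold Nat.ModEq at h1
    omega
  · have b35 := H9.ncard_mul_card_le (Ω := Sylow 7 X) (R := 𝐂((P : Subgroup X)))
      (H1.normalizer_le_normalizer_centralizer _ t.2) (fun r hr e => by
        by_contra r1
        obtain ⟨n, hn⟩ := pw r hr r1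
        have hcm : Commute (t : X) (r ^ n) :=
          (show Commute (t : X) r from mul_inv_eq_iff_eq_mul.1 e).pow_right n
        rcases hn with hn | hn
        · exact hw ⟨_, pow_mem hr n, hn, hcm⟩
        · have := tP _ (f7 _ (pow_mem hr n) hn) (mul_inv_eq_iff_eq_mul.2 hcm)
          rw [this, orderOf_one] at hn; omega)
      (fixedBy (Sylow 7 X) (t : X) \ {P}) (fun a ha => ha.1)
      (fun a ha r hr e => free r hr a ha.2 e)
    rw [hn, hC] at b35
    omega

theorem false_2520 [IsSimpleGroup X] (hX : ¬ IsMulCommutative X) (hc : Nat.card X = 2520)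
    (c : Cf σ Θ) {x : X} (hx : orderOf x = 7) (fx : σ x = x) : False := by
  have : Fact (Nat.Prime 7) := ⟨by norm_num⟩
  obtain ⟨t, ht, ft⟩ := c.exists_inv (by rw [hc]; norm_num)
  have tN : zpowers t ≤ 𝐍(Θ) := by
    refine zpowers_le.2 (mem_normalizer_fintype fun g hg => ?_)
    obtain ⟨a, b⟩ := (c.mem g).1 hg
    refine (c.mem _).2 ⟨by rw [map_mul, map_mul, map_inv, a, ft], ?_⟩
    rwa [← MulAut.conj_apply, MulEquiv.orderOf_eq]
  obtain ⟨R, hR, -, hRt⟩ := exists_invariant_isSyl (p := 7) (Q := ⊥) (by norm_num) tN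
    (by rw [Nat.card_zpowers, ht]; exact Nat.coprime_two_left.2 c.odd)
    (Or.inl inferInstance) IsPGroup.of_bot bot_le (norm_bot.ge.trans' le_top)
  have R1 : R ≠ ⊥ := hR.ne_bot (by norm_num)
    (hx ▸ orderOf_dvd_natCard _ ((c.mem x).2 ⟨fx, by rw [hx]; decide⟩))
  obtain ⟨P, hP⟩ := hR.pgrp.exists_le_sylow
  have hP7 : Nat.card P = 7 := H9.card_sylow_eq_of_not_sq_dvd P (by rw [hc]; norm_num)
    (by rw [hc]; norm_num)
  have hRP : R = P := by
    refine eq_of_le_of_card_ge hP ?_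
    have h1 := FT.card_dvd_of_le hP
    rw [hP7] at h1
    rcases (Nat.dvd_prime (by norm_num)).1 h1 with h | h
    · exact absurd (card_eq_one.1 h) R1
    · rw [h, hP7]
  have h2 : 2 ∣ 𝐨(𝐍((P : Subgroup X))) := ht ▸ orderOf_dvd_natCard _ (hRP ▸ hRt (mem_zpowers t))
  have h1 := (𝐍((P : Subgroup X))).card_mul_index
  have h3 : (𝐍((P : Subgroup X))).index = Nat.card (Sylow 7 X) := P.card_eq_index_normalizer.symm
  have h4 := card_sylow_modEq_one 7 X
  have h5 := H9.card_sylow_ne_one_of_simple hX (p := 7) (by rw [hc]; norm_num)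
  have h6 := S4304.result (G := X)
  have h7 := not36 hX hc
  obtain ⟨m, hm⟩ := h2
  rw [h3, hc, hm] at h1
  have h8 : Nat.card (Sylow 7 X) ∣ 180 := by
    have : Nat.card (Sylow 7 X) ∣ 180 * 7 := ⟨m, by linarith⟩
    refine Nat.Coprime.dvd_of_dvd_mul_right ?_ this
    exact ((Nat.Prime.coprime_iff_not_dvd (by norm_num)).2 fun h => by
      unfold Nat.ModEq at h4; omega).symm
  generalize Nat.card (Sylow 7 X) = n at h4 h5 h6 h7 h8
  have h9 : n ∈ Nat.divisors 180 := Nat.mem_divisors.2 ⟨h8, by norm_num⟩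
  have h10 : ∀ n ∈ Nat.divisors 180, n % 7 = 1 → n = 1 ∨ n = 15 ∨ n = 36 := by decide
  rcases h10 n h9 h4 with e | e | e
  · exact h5 e
  · exact h6 e
  · exact h7 e

theorem ps_psl (F : Type) [Field F] [Fintype F] (hF : Odd (Fintype.card F)) :
    ∃ p q : ℕ, p.Prime ∧ p ∣ Nat.card (P4.PSL F) ∧ Ps (P4.PSL F) p q := by
  obtain ⟨p, _, n, hp, hn⟩ := FiniteField.card' F
  have hq : Nat.card F = p ^ (n : ℕ) := by rw [Nat.card_eq_fintype_card, hn]
  have ho : Odd (Nat.card F) := by rwa [Nat.card_eq_fintype_card]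
  have hpq : p ∣ Nat.card F := hq ▸ dvd_pow_self p n.ne_zero
  have p2 : p ≠ 2 := by
    rintro rfl
    exact (Nat.not_even_iff_odd.2 ho) (even_iff_two_dvd.2 hpq)
  have hcard := P3.two_mul_card_PSL2 ho
  refine ⟨p, Nat.card F, hp, ?_, p2, ⟨n - 1, by rw [hq]; congr 1; have := n.pos; omega⟩, hcard,
    fun c hc => ?_⟩
  · have : p ∣ 2 * Nat.card (P4.PSL F) := by
      rw [hcard, mul_assoc]; exact hpq.mul_right _
    exact ((Nat.Prime.dvd_mul hp).1 this).resolve_left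
      fun h => p2 ((Nat.prime_dvd_prime_iff_eq hp Nat.prime_two).1 h)
  have c1 : c ≠ 1 := fun e => hp.one_lt.ne (by rw [← hc, e, orderOf_one])
  have c2 : c * c ≠ 1 := fun e => by
    have : orderOf c ∣ 2 := orderOf_dvd_of_pow_eq_one (by rw [pow_two, e])
    exact p2 ((Nat.prime_dvd_prime_iff_eq hp Nat.prime_two).1 (hc ▸ this))
  have hpc : p ∣ 𝐨(𝐂[c]) := hc ▸ orderOf_dvd_natCard _ (self_mem_cent1 c)
  refine ⟨?_, ?_⟩
  · obtain ⟨x, rfl⟩ := QuotientGroup.mk_surjective c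
    have hx : x ∉ center (H4.SL2.SL F) := fun h => c1 ((QuotientGroup.eq_one_iff x).2 h)
    have htr : H4.SL2.tr x ≠ 0 := fun h =>
      c2 ((QuotientGroup.eq_one_iff (x * x)).2 (P4.sq_mem_center h))
    rw [P4.cent_eq_cbar (Or.inl htr)]
    rintro _ ⟨a, ha, rfl⟩ _ ⟨b, hb, rfl⟩
    have := (H4.SL2.isMulCommutative_centralizer hx).is_comm.comm ⟨a, ha⟩ ⟨b, hb⟩
    exact (show Commute a b from congrArg Subtype.val this).map _
  · rcases P4.psl_cent c1 (Or.inl c2) with ⟨-, h | h⟩ | h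
    · exact absurd (Nat.dvd_one.1 ((Nat.dvd_add_right (hpc.mul_left _)).1 (h ▸ hpq))) hp.one_lt.ne'
    · exact absurd (Nat.dvd_one.1 ((Nat.dvd_add_right hpq).1 (h ▸ hpc.mul_left _))) hp.one_lt.ne'
    · exact h

theorem Ps.equiv {Y : Type} [Group Y] {p q : ℕ} (h : Ps Y p q) (e : X ≃* Y) : Ps X p q := by
  refine ⟨h.p2, h.pow, by rw [Nat.card_congr e.toEquiv, h.card], fun c hc => ?_⟩
  obtain ⟨h1, h2⟩ := h.cent (e c) (by rw [MulEquiv.orderOf_eq, hc])
  have hm : ∀ a, a ∈ 𝐂[c] ↔ e a ∈ 𝐂[e c] := fun a => by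
    rw [mem_cent1, mem_cent1]
    exact ⟨fun h => Commute.map h e, fun h => e.injective (by rw [map_mul, map_mul]; exact h)⟩
  refine ⟨fun a ha b hb => e.injective ?_, ?_⟩
  · rw [map_mul, map_mul]; exact h1 _ ((hm a).1 ha) _ ((hm b).1 hb)
  · rw [← h2]; exact Nat.card_congr (e.toEquiv.subtypeEquiv hm)

end En

open En in
theorem endStmt : EndStmt.{u} := by
  intro B _ _ L _ _ hna hnc hev h
  have key : ∀ r : ℕ, r.Prime → r ≠ 2 → r ∣ Nat.card L →
      ∃ (σ : MulAut L) (Θ : Subgroup L) (y : L), Cf σ Θ ∧ orderOf y = r ∧ σ y = y := by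
    intro r hr r2 hd
    have := Fact.mk hr
    obtain ⟨y, hy⟩ := exists_prime_orderOf_dvd_card' r hd
    obtain ⟨u, hu, hc⟩ := hev y y.2 ⟨r, 1, hr, r2, by rw [orderOf_coe, hy, pow_one]⟩
    have hf : ∀ x : L, MulAut.conjNormal u x = x ↔ Commute u x := fun x => by
      rw [Subtype.ext_iff, MulAut.conjNormal_apply, mul_inv_eq_iff_eq_mul]; rfl
    refine ⟨MulAut.conjNormal u, (th L u).subgroupOf L, y, ⟨by rw [← map_mul, hu.sq, map_one],
      ?_, fun x => ?_⟩, hy, (hf y).2 hc⟩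
    · rw [Nat.card_congr (subgroupOfEquivOfLe ((th_le L u).trans inf_le_left)).toEquiv]
      exact odd_th L u
    · rw [mem_subgroupOf, hnc.mem_th hu, hf, orderOf_coe]
      exact ⟨fun h => h.2, fun h => ⟨x.2, h⟩⟩
  rcases h with ⟨F, _, _, hF, ⟨e⟩⟩ | ⟨h, -⟩
  · obtain ⟨p, q, hp, hd, hs⟩ := ps_psl F hF
    have := Fact.mk hp
    obtain ⟨σ, Θ, y, c, hy, fy⟩ := key p hp hs.p2 (by rwa [Nat.card_congr e.toEquiv])
    exact (hs.equiv e).false hna c hy fy
  · obtain ⟨σ, Θ, y, c, hy, fy⟩ := key 7 (by norm_num) (by norm_num) (by rw [h]; norm_num)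
    exact false_2520 hna h c hy fy

end Cfsg.Agent.P29
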