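/-
P29, chapter Red: reduction of the simple case to `CoreStmt`, and S4131 from `SimStmt`.
-/
import Cfsg.Agent.P29.Defs
import Cfsg.Agent.P22.Q0
import Cfsg.Agent.H9.ClassSize
import Cfsg.Agent.H2.SL23
import Cfsg.Agent.L.SimpleRed
import Cfsg.Agent.FT.Final

set_option autoImplicit false
set_option linter.unusedSectionVars false
set_option linter.style.haveILetI false

namespace Cfsg.Agent.P29

open Subgroup Cfsg Cfsg.Agent Cfsg.Agent.FT Cfsg.Agent.P6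
open scoped commutatorElement

universe u

namespace Red

variable {B B' : Type u} [Group B] [Finite B] [Group B'] [Finite B']

theorem act {H : Subgroup B} (h : ¬ HasNPC 2 H) :
    ∃ y ∈ H, OP y ∧ ∃ U ≤ H, IsPGroup 2 U ∧ y ∈ 𝐍(U) ∧ y ∉ 𝐂(U) := by
  haveI := Fact.mk Nat.prime_two
  by_contra hn
  obtain ⟨P⟩ : Nonempty (Sylow 2 H) := inferInstance
  refine h ((hasNPC_iff Nat.prime_two).2 (H8.hasNPC_of_primePow_centralizes P
    fun X hX _ g hg q k hq h2 ho => by_contra fun e => hn ⟨g, g.2, ⟨q, k, hq, h2, by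
      rwa [orderOf_coe]⟩, X.map H.subtype, map_subtype_le _, (P.isPGroup'.to_le hX).map _,
      le_normalizer_map H.subtype (mem_map_of_mem _ hg), fun r => e ?_⟩))
  rw [← zpowers_le, ← map_le_cent_iff H.subtype_injective, MonoidHom.map_zpowers, zpowers_le]
  exact r

theorem op_map {y : B} (h : OP y) (π : B →* B') : OP (π y) := by
  obtain ⟨r, k, hr, r2, e⟩ := h
  obtain ⟨j, -, e'⟩ := (Nat.dvd_prime_pow hr).1 (e ▸ orderOf_map_dvd π y)
  exact ⟨r, j, hr, r2, e'⟩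

theorem plift (π : B →* B') {H : Subgroup B} {y : B'} (hy : y ∈ H.map π) (h : OP y) :
    ∃ x ∈ H, OP x ∧ π x = y := by
  obtain ⟨r, k, hr, r2, e⟩ := h
  obtain ⟨x, ⟨m, hm⟩, e1⟩ := H9.exists_pElement_map_eq (π.subgroupMap_surjective H) hr
    (y := ⟨y, hy⟩) (k := k) (by rwa [Subgroup.orderOf_mk])
  exact ⟨x, x.2, ⟨r, m, hr, r2, by rwa [orderOf_coe]⟩, congrArg Subtype.val e1⟩

theorem cop {y : B} (h : OP y) {Q : Subgroup B} (hQ : IsPGroup 2 Q) :
    𝐨(zpowers y).Coprime 𝐨(Q) := by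
  obtain ⟨k, hk⟩ := IsPGroup.iff_card.1 hQ
  rw [hk, Nat.card_zpowers]
  exact (Nat.coprime_two_right.2 h.odd).pow_right k

theorem fp_map (π : B →* B') {y : B} (h : OP y) {Q : Subgroup B} (hQ : IsPGroup 2 Q)
    (n : y ∈ 𝐍(Q)) (k : y ∈ 𝐂(Q) ∨ Q ⊓ 𝐂[y] ≤ π.ker) :
    π y ∈ 𝐂(Q.map π) ∨ Q.map π ⊓ 𝐂[π y] = ⊥ := by
  refine k.imp (fun k => ?_) fun k => ?_
  · rintro _ ⟨q, hq, rfl⟩
    rw [← map_mul, ← map_mul, k q hq]
  · rw [← cent_zpowers, ← MonoidHom.map_zpowers, H1.map_inf_centralizer_map π (zpowers_le.2 n)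
      (cop h hQ) (.inl inferInstance), Subgroup.map_eq_bot_iff, cent_zpowers]
    exact k

/-- The inductive hypothesis. -/
structure St (K : Subgroup B) : Prop where
  nrm : K.Normal
  fp : ∀ y ∈ K, OP y → ∀ Q : Subgroup B, IsPGroup 2 Q → y ∈ 𝐍(Q) → y ∈ 𝐂(Q) ∨ Q ⊓ 𝐂[y] = ⊥
  ev : Ev K
  nt : ∃ y ∈ K, OP y ∧ ∃ Q : Subgroup B, IsPGroup 2 Q ∧ y ∈ 𝐍(Q) ∧ y ∉ 𝐂(Q)

namespace St

variable {K : Subgroup B} (s : St K)
include s

theorem quot {N : Subgroup B} [N.Normal] (h : N ≤ K) (ho : Odd 𝐨(N)) :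
    St (K.map (QuotientGroup.mk' N)) := by
  have hπ := QuotientGroup.mk'_surjective N
  have k1 : ∀ x, QuotientGroup.mk' N x = 1 ↔ x ∈ N := fun x => QuotientGroup.eq_one_iff x
  generalize QuotientGroup.mk' N = π at hπ k1
  refine ⟨s.nrm.map π hπ, fun y hy oy Q hQ n => ?_, fun y hy oy => ?_, ?_⟩
  · obtain ⟨T, hT⟩ := exists_isSyl Nat.prime_two (Q.comap π)
    have e : T.map π = Q := by
      refine le_antisymm (map_le_iff_le_comap.2 hT.le) (relIndex_eq_one.1 ?_)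
      obtain ⟨k, hk⟩ := IsPGroup.iff_card.1 hQ
      refine Nat.eq_one_of_dvd_coprimes ((Nat.prime_two.coprime_iff_not_dvd.2 hT.ndvd).pow_left k)
        (hk ▸ relIndex_dvd_card _ _) ?_
      nth_rewrite 1 [← map_comap_eq_self_of_surjective hπ Q]
      rw [← relIndex_comap]
      exact relIndex_dvd_of_le_left _ (le_comap_map π T)
    obtain ⟨x, hx, rfl⟩ := hy
    obtain ⟨a, ha, b, hb, rfl⟩ := (mem_sup_of_norm inf_le_left).1
      ((hT.frattini Nat.prime_two ⟨le_norm_self _, le_rfl⟩).ge (le_normalizer_comap π n))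
    obtain ⟨t, ht, e1⟩ := e.ge ha
    have m : a * t⁻¹ ∈ N := (k1 _).1 (by rw [map_mul, map_inv, e1, mul_inv_cancel])
    obtain ⟨x, hx', ox, e2⟩ := plift π (H := K ⊓ 𝐍(T)) ⟨t * b, mem_inf.2
      ⟨by simpa [mul_assoc] using mul_mem (inv_mem (h m)) hx, mul_mem (le_norm_self T ht) hb.2⟩,
      by rw [map_mul, e1, map_mul]⟩ oy
    rw [← e2, ← e]
    exact fp_map π ox hT.pgrp hx'.2 ((s.fp x hx'.1 ox T hT.pgrp hx'.2).imp_right
      fun r => r.le.trans bot_le)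
  · obtain ⟨x, hx, ox, rfl⟩ := plift π hy oy
    obtain ⟨u, hu, c⟩ := s.ev x hx ox
    refine ⟨π u, ⟨fun e => ?_, by rw [← map_mul, hu.sq, map_one]⟩, c.map π⟩
    have := odd_orderOf_of_mem ho ((k1 u).1 e)
    rw [orderOf_eq_prime (p := 2) (by rw [pow_two, hu.sq]) hu.ne] at this
    exact absurd this (by decide)
  · obtain ⟨y, hy, oy, Q, hQ, n, c⟩ := s.nt
    refine ⟨π y, mem_map_of_mem π hy, op_map oy π, Q.map π, hQ.map π,
      le_normalizer_map π (mem_map_of_mem π n), fun e => c fun q hq => ?_⟩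
    have h1 : ⁅q, y⁆ ∈ Q := by
      rw [show ⁅q, y⁆ = q * (y * q⁻¹ * y⁻¹) by group]
      exact mul_mem hq ((mem_normalizer_iff.1 n _).1 (inv_mem hq))
    refine commutatorElement_eq_one_iff_mul_comm.1 (P4.eq_one_of_odd_of_mem hQ
      (odd_orderOf_of_mem ho ((k1 _).1 ?_)) h1)
    rw [map_commutatorElement, commutatorElement_eq_one_iff_mul_comm]
    exact e _ (mem_map_of_mem π hq)

theorem cen {y u : B} (hy : y ∈ K) (oy : OP y) {Q : Subgroup B} (hQ : IsPGroup 2 Q)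
    (n : y ∈ 𝐍(Q)) (hu : Inv u) (c : Commute u y) (nu : u ∈ 𝐍(Q)) : y ∈ 𝐂(Q) := by
  have c' : y ∈ 𝐂(zpowers u) := by rw [cent_zpowers]; exact mem_cent1.2 c
  refine cent_anti le_sup_right ((s.fp y hy oy (zpowers u ⊔ Q) (isPGroup_sup
    (elemAb_isPGroup (elemAb_zpowers (by rw [pow_two, hu.sq]))) hQ (zpowers_le.2 nu))
    (zpowers_le.1 (H1.le_normalizer_sup (zpowers_le.2 (cent_le_norm _ c'))
      (zpowers_le.2 n)))).resolve_right fun e => hu.ne (mem_bot.1 (e.le (mem_inf.2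
        ⟨mem_sup_left (mem_zpowers u), mem_cent1.2 c.symm⟩))))

theorem two {N : Subgroup B} [N.Normal] (h : IsPGroup 2 N) : N = ⊥ := by
  obtain ⟨y, hy, oy, Q, hQ, n, c⟩ := s.nt
  obtain ⟨u, hu, cu⟩ := s.ev y hy oy
  have nN : ∀ x, x ∈ 𝐍(N) := fun x => le_normalizer_of_normal (mem_top x)
  have h1 := s.cen hy oy h (nN y) hu cu (nN u)
  exact eq_bot_iff.2 ((le_inf le_sup_right (mem_cent_iff_cent1.1 h1)).trans
    ((s.fp y hy oy (Q ⊔ N) (isPGroup_sup hQ h le_normalizer_of_normal)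
      (zpowers_le.1 (H1.le_normalizer_sup (zpowers_le.2 n) (zpowers_le.2 (nN y))))).resolve_left
      fun e => c (cent_anti le_sup_left e)).le)

theorem nc : NC K := fun u hu => by_contra fun e => by
  obtain ⟨y, hy, oy, U, h1, h2, n, c⟩ := act e
  exact c (s.cen hy.1 oy h2 n hu (mem_cent1.1 hy.2)
    (cent_le_norm _ (mem_cent_iff_cent1.2 (h1.trans inf_le_right))))

end St

theorem nrm (N M : Subgroup B) [N.Normal] (h : 𝐍(N) ≤ 𝐍(M)) : M.Normal :=
  normalizer_eq_top_iff.1 (eq_top_iff.2 (le_normalizer_of_normal.trans h))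

theorem noSt (Core : CoreStmt.{u}) (B : Type u) [Group B] [Finite B] :
    ∀ K : Subgroup B, ¬ St K := by
  induction hn : Nat.card B using Nat.strong_induction_on generalizing B with
  | _ n ih =>
  intro K s
  haveI := s.nrm
  by_cases o : Od K = ⊥
  swap
  · haveI := nrm K (Od K) (norm_le_norm_Od K)
    refine ih _ ?_ _ rfl _ (s.quot (Od_normal K).1 (odd_Od K))
    rw [← hn, ← (Od K).card_mul_index]
    exact lt_mul_of_one_lt_left (Nat.pos_of_ne_zero index_ne_zero_of_finite)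
      ((one_lt_card_iff_ne_bot _).2 o)
  obtain ⟨N, ⟨n1, n2, n3⟩, mN⟩ := Set.exists_min_image
    {N : Subgroup B | N ≤ K ∧ N.Normal ∧ N ≠ ⊥} (fun N => 𝐨(N)) (Set.toFinite _)
    ⟨K, le_rfl, s.nrm, fun e => by
      obtain ⟨y, hy, -, Q, -, -, c⟩ := s.nt
      rw [e, mem_bot] at hy
      exact c (hy ▸ one_mem _)⟩
  have npc : ∀ L, L ⊲ N → HasNPC 2 L → L = ⊥ := fun L hL h => by
    haveI := nrm N (Od N) (norm_le_norm_Od N)
    have h1 : Od L = ⊥ := eq_bot_iff.2 ((le_Od ⟨(Od_normal L).1.trans hL.1,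
      hL.2.trans (norm_le_norm_Od L)⟩ (odd_Od L)).trans ((le_Od ⟨(Od_normal N).1.trans n1,
        le_normalizer_of_normal⟩ (odd_Od N)).trans o.le))
    obtain ⟨T, hT⟩ := exists_isSyl Nat.prime_two L
    have h2 := (h.sdProd Nat.prime_two hT).sup
    rw [show H2.pPrimeCoreOf 2 L = ⊥ from h1, bot_sup_eq] at h2
    haveI : (pCoreOf 2 N).Normal := nrm N _ (by
      rw [pCoreOf_eq Nat.prime_two]; exact norm_le_norm_piCoreOf _ N)
    exact eq_bot_iff.2 ((le_pCoreOf hL (h2 ▸ hT.pgrp)).trans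
      (s.two (H2.isPGroup_pCoreOf 2 N)).le)
  have key : ∀ L, L ⊲ N → L ≠ ⊥ → L = N := fun L' l1' l2' => by
    obtain ⟨L, ⟨l0, l1, l2⟩, mL⟩ := Set.exists_min_image
      {L : Subgroup B | L ≤ L' ∧ L ⊲ N ∧ L ≠ ⊥} (fun N => 𝐨(N)) (Set.toFinite _)
      ⟨L', le_rfl, l1', l2'⟩
    suffices H : L.Normal from le_antisymm l1'.1
      ((H1.eq_of_le_of_card_le l1.1 (mN L ⟨l1.1.trans n1, H, l2⟩)).ge.trans l0)
    refine normalizer_eq_top_iff.1 (eq_top_iff.2 fun g _ => inv_mem_iff.1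
      (mem_norm_of_conj_le (le_conj_iff.1 (by_contra fun e => l2 (npc L l1 ?_)))))
    have c : L ^ᵍ g ⊲ N := by
      have e1 : N ^ᵍ g = N := conj_eq_of_mem_norm (le_normalizer_of_normal (mem_top g))
      exact ⟨e1 ▸ conj_mono l1.1 g, e1 ▸ conj_le_norm_iff.2 l1.2⟩
    have b : L ⊓ L ^ᵍ g = ⊥ := by_contra fun r => e (inf_eq_left.1 (H1.eq_of_le_of_card_le
      inf_le_left (mL _ ⟨inf_le_left.trans l0, ⟨inf_le_left.trans l1.1,
        H1.le_normalizer_inf l1.2 c.2⟩, r⟩)))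
    by_cases od : Odd 𝐨(L)
    · exact (hasNPC_iff Nat.prime_two).2 (H8.hasNPC_of_not_dvd od.not_two_dvd_nat)
    obtain ⟨t, ht, it⟩ := exists_inv_of_even (X := L ^ᵍ g) (by rwa [card_conj])
    refine (s.nc t it).of_le Nat.prime_two (le_inf (l1.1.trans n1) ?_)
    refine (cent_comm.1 (comm_eq_bot_iff.1 (eq_bot_iff.2 (b ▸ le_inf ?_ ?_)))).trans
      (cent_le_cent1 ht)
    · exact comm_le_right_iff.2 (c.1.trans l1.2)
    · exact comm_le_left_iff.2 (l1.1.trans c.2)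
  haveI := (nontrivial_iff_ne_bot N).2 n3
  refine Core B N n2 ⟨fun H hH => ?_⟩ (fun c => n3 (npc N ⟨le_rfl, le_norm_self N⟩
    (hasNPC_of_isNilpotent Nat.prime_two (L.isNilpotent_of_isMulCommutative N))))
    (s.nc.mono n1) fun y hy => s.ev y (n1 hy)
  refine or_iff_not_imp_left.2 fun e => map_injective N.subtype_injective ?_
  rw [← MonoidHom.range_eq_map, range_subtype]
  exact key _ ⟨map_subtype_le _, by
    nth_rewrite 1 [← N.range_subtype, MonoidHom.range_eq_map]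
    exact (map_le_norm_iff N.subtype_injective).2 le_normalizer_of_normal⟩ fun r =>
    e ((map_eq_bot_iff_of_injective _ N.subtype_injective).1 r)

theorem exSt {G : Type u} [Group G] [Finite G] (h0 : ¬ HasNPC 2 (⊤ : Subgroup G))
    (h : ∀ y : G, OP y → ¬ 4 ∣ 𝐂[y].index) :
    ∃ (A : Subgroup G) (_ : (A.subgroupOf 𝐍(A)).Normal),
      St ((𝐂(A).subgroupOf 𝐍(A)).map (QuotientGroup.mk' (A.subgroupOf 𝐍(A)))) := by
  obtain ⟨y, -, oy, U, -, hU⟩ := act h0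
  obtain ⟨⟨y, Q⟩, ⟨oy, hQ, n, c⟩, mx⟩ := Set.exists_max_image
    {p : G × Subgroup G | OP p.1 ∧ IsPGroup 2 p.2 ∧ p.1 ∈ 𝐍(p.2) ∧ p.1 ∉ 𝐂(p.2)}
    (fun p => 𝐨(p.2 ⊓ 𝐂[p.1])) (Set.toFinite _) ⟨(y, U), oy, hU⟩
  simp only at oy hQ n c mx
  have Ay : Q ⊓ 𝐂[y] ≤ 𝐂[y] := inf_le_right
  have lt : Q ⊓ 𝐂[y] < Q ⊓ 𝐍((Q ⊓ 𝐂[y] : Subgroup G)) := lt_inf_norm_of_isNilpotent
    (isNilpotent_of_isPGroup Nat.prime_two hQ) (lt_of_le_of_ne inf_le_left
      fun e => c (mem_cent_iff_cent1.2 (e.ge.trans Ay)))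
  have e0 : Q ⊓ 𝐍((Q ⊓ 𝐂[y] : Subgroup G)) ⊓ 𝐂[y] ≤ Q ⊓ 𝐂[y] := inf_le_inf_right _ inf_le_left
  have pA : IsPGroup 2 (Q ⊓ 𝐂[y] : Subgroup G) := hQ.to_le inf_le_left
  generalize Q ⊓ 𝐂[y] = A at mx Ay lt e0 pA
  have yA : y ∈ 𝐂(A) := mem_cent_iff_cent1.2 Ay
  have p1 : IsPGroup 2 (Q ⊓ 𝐍(A) : Subgroup G) := hQ.to_le inf_le_left
  have n1 : zpowers y ≤ 𝐍((Q ⊓ 𝐍(A) : Subgroup G)) := H1.le_normalizer_inf (zpowers_le.2 n)
    ((zpowers_le.2 (cent_le_norm _ yA)).trans (le_norm_self _))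
  have nc : ¬ ⁅Q ⊓ 𝐍(A), zpowers y⁆ ≤ A := fun e => lt.not_ge (le_trans (le_inf le_rfl
    (mem_cent_iff_cent1.1 (zpowers_le.1 (H1.le_centralizer_of_commutator_le n1 (cop oy p1) e
      (zpowers_le.2 yA))))) e0)
  have four : 4 ∣ A.index := by
    obtain ⟨k, hk⟩ := IsPGroup.iff_card.1 p1
    obtain ⟨j, -, hj⟩ := (Nat.dvd_prime_pow Nat.prime_two).1
      (hk ▸ relIndex_dvd_card A (Q ⊓ 𝐍(A)))
    refine Dvd.dvd.trans ?_ (relIndex_dvd_index_of_le lt.le)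
    rw [hj]
    refine pow_dvd_pow 2 (show 2 ≤ j from by_contra fun r => ?_)
    obtain rfl | rfl : j = 0 ∨ j = 1 := by omega
    · exact lt.not_ge (relIndex_eq_one.1 hj)
    · exact nc (P22.comm_le_of_two hj n1 (by
        rw [inf_eq_left.2 lt.le]; exact zpowers_le.2 (cent_le_norm _ yA)))
  haveI := H1.normal_subgroupOf_of_le (le_refl 𝐍(A))
  haveI := H1.normal_subgroupOf_of_le (H1.le_normalizer_centralizer (le_refl 𝐍(A)))
  have hπ := QuotientGroup.mk'_surjective (A.subgroupOf 𝐍(A))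
  have k1 := QuotientGroup.ker_mk' (A.subgroupOf 𝐍(A))
  have hf := 𝐍(A).subtype_injective
  have mA : (A.subgroupOf 𝐍(A)).map 𝐍(A).subtype = A := by
    rw [subgroupOf_map_subtype, inf_eq_left.2 (le_norm_self A)]
  refine ⟨A, inferInstance, Normal.map inferInstance _ hπ, fun z hz oz R hR nR => ?_,
    fun z hz oz => ?_, ?_⟩
  all_goals generalize QuotientGroup.mk' (A.subgroupOf 𝐍(A)) = π at *
  · obtain ⟨x, hx, ox, rfl⟩ := plift π hz oz
    have pR : IsPGroup 2 (R.comap π) := hR.comap_of_ker_isPGroup π (by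
      rw [k1, ← isPGroup_map_iff hf, mA]; exact pA)
    have nx := le_normalizer_comap π nR
    rw [← map_comap_eq_self_of_surjective hπ R]
    refine fp_map π ox pR nx (or_iff_not_imp_left.2 fun e => ?_)
    have e1 := H1.eq_of_le_of_card_le (le_inf (mA.ge.trans (map_mono (k1.ge.trans (ker_le_comap π R))))
      (mem_cent_iff_cent1.1 hx)) (mx (x, (R.comap π).map 𝐍(A).subtype)
        ⟨op_map ox 𝐍(A).subtype, pR.map _, le_normalizer_map _ (mem_map_of_mem _ nx), fun r => e (by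
          rwa [← zpowers_le, ← map_le_cent_iff hf, MonoidHom.map_zpowers, zpowers_le])⟩)
    rw [k1]
    exact fun w hw => e1.ge (mem_inf.2 ⟨mem_map_of_mem _ hw.1,
      mem_cent1.2 (congrArg Subtype.val (mem_cent1.1 hw.2))⟩)
  · obtain ⟨x, hx, ox, rfl⟩ := plift π hz oz
    have Ax : A ≤ 𝐂[(x : G)] := mem_cent_iff_cent1.1 hx
    obtain ⟨S, hS, AS⟩ := exists_isSyl_ge Nat.prime_two pA Ax
    have l := lt_inf_norm_of_isNilpotent (isNilpotent_of_isPGroup Nat.prime_two hS.pgrp)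
      (lt_of_le_of_ne AS fun e => h x (op_map ox 𝐍(A).subtype) (by
        rw [← relIndex_mul_index Ax] at four
        exact (Nat.Coprime.pow_left 2 (Nat.prime_two.coprime_iff_not_dvd.2
          (e ▸ hS.ndvd))).dvd_of_dvd_mul_left four))
    obtain ⟨_, ⟨t, ht, rfl⟩, t1, t2⟩ := P22.exists_inv_of_pgroup
      ((hS.pgrp.comap_of_injective _ hf).map π) fun e => l.not_ge fun w hw => by
        rw [Subgroup.map_eq_bot_iff, k1] at e
        exact e (x := ⟨w, hw.2⟩) hw.1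
    exact ⟨π t, ⟨t2, t1⟩, Commute.map (Subtype.ext (mem_cent1.1 (hS.le ht)).symm) π⟩
  · have mQ : (Q.subgroupOf 𝐍(A)).map 𝐍(A).subtype = Q ⊓ 𝐍(A) := subgroupOf_map_subtype _ _
    refine ⟨π ⟨y, cent_le_norm _ yA⟩, mem_map_of_mem π yA, op_map (by
      obtain ⟨r, k, a, b, e⟩ := oy
      exact ⟨r, k, a, b, by rwa [Subgroup.orderOf_mk]⟩) π, (Q.subgroupOf _).map π,
      (hQ.comap_of_injective _ hf).map π, le_normalizer_map π (mem_map_of_mem π
        (le_normalizer_comap _ n)), fun e => nc (H1.commutator_zpowers_le (cent_le_norm _ yA)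
        fun g hg => ?_)⟩
    have : ⁅(⟨g, hg.2⟩ : 𝐍(A)), ⟨y, cent_le_norm _ yA⟩⁆ ∈ π.ker := by
      rw [MonoidHom.mem_ker, map_commutatorElement, commutatorElement_eq_one_iff_mul_comm]
      exact e _ (mem_map_of_mem π hg.1)
    rw [k1] at this
    exact this

end Red

theorem simStmt (Core : CoreStmt.{u}) : SimStmt.{u} := by
  intro G _ _ hs hc h
  haveI := Fact.mk Nat.prime_two
  have ns := L.not_isSolvable_of_isSimpleGroup hc
  obtain ⟨A, _, s⟩ := Red.exSt (G := G) (fun e => by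
    obtain ⟨N, hN, N1, k, N2⟩ := H8.hasNPC_iff_exists.1
      (H8.hasNPC_top_iff.1 ((hasNPC_iff Nat.prime_two).1 e))
    rcases hN.eq_bot_or_eq_top with rfl | rfl
    · exact ns (H1.isSolvable_of_isPGroup (IsPGroup.of_card (by rwa [index_bot] at N2)))
    · exact ns (feit_thompson G (by rw [card_top] at N1; exact Nat.coprime_two_right.1 N1))) h
  exact Red.noSt Core _ _ s

theorem npc_of_solv {G : Type u} [Group G] [Finite G] (hs : Group.IsSolvable G) {p : ℕ}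
    [hp : Fact p.Prime] (hmin : ∀ r : ℕ, r.Prime → r ∣ Nat.card G → p ≤ r)
    (h : ∀ x : G, (∃ r k : ℕ, r.Prime ∧ r ≠ p ∧ orderOf x = r ^ k) → ¬ p ^ 2 ∣ 𝐂[x].index) :
    HasNormalPComplement p G := by
  refine H8.hasNPC_of_quotient_coprime _ (L.coprime_card_pPrimeCore p)
    (H8.hasNPC_of_isPGroup (IsPGroup.iff_card.2 ⟨_, Nat.eq_prime_pow_of_unique_prime_dvd
      Nat.card_pos.ne' fun {r} hr d => by_contra fun rp => ?_⟩))
  haveI := Fact.mk hr
  have hπ := QuotientGroup.mk'_surjective (pPrimeCore p G)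
  have pr := hmin r hr (d.trans (card_quotient_dvd_card _))
  obtain ⟨y, hy⟩ := exists_prime_orderOf_dvd_card' r d
  obtain ⟨x, ⟨m, hm⟩, e⟩ := H9.exists_pElement_map_eq hπ hr (k := 1) (hy.trans (pow_one r).symm)
  have h1 : ¬ p ^ 2 ∣ 𝐂[y].index := fun k => h x ⟨r, m, hr, rp, hm⟩
    (k.trans (e ▸ H9.index_centralizer_map_dvd hπ x))
  have hc := L.centralizer_pCore_le hp.out (L.isPSolvable_of_isSolvable hp.out)
    (L.pPrimeCore_quotient_pPrimeCore (G := G) hp.out)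
  have hP := L.isPGroup_pCore (G := G ⧸ pPrimeCore p G) p
  obtain ⟨k, hk⟩ := IsPGroup.iff_card.1 hP
  obtain ⟨j, -, hj⟩ := (Nat.dvd_prime_pow hp.out).1
    (hk ▸ relIndex_dvd_card 𝐂[y] (pCore p (G ⧸ pPrimeCore p G)))
  have j2 : j < 2 := by_contra fun r => h1 ((pow_dvd_pow p (not_lt.1 r)).trans
    (hj ▸ H9.relIndex_dvd_index_of_normal_right _ _))
  obtain rfl | rfl : j = 0 ∨ j = 1 := by omega
  · have := orderOf_dvd_natCard _ (hc (mem_cent_iff_cent1.2 (relIndex_eq_one.1 hj)))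
    rw [hy, hk] at this
    exact rp ((Nat.prime_dvd_prime_iff_eq hr hp.out).1 (hr.dvd_of_dvd_pow this))
  have c := H2.card_modEq_card_inf_centralizer (N := pCore p (G ⧸ pPrimeCore p G))
    (IsPGroup.of_card (p := r) (n := 1) (G := zpowers y) (by rw [Nat.card_zpowers, hy, pow_one]))
    le_normalizer_of_normal
  rw [cent_zpowers, ← H1.card_inf_mul_relIndex 𝐂[y], hj, inf_comm 𝐂[y], pow_one] at c
  obtain ⟨i, hi⟩ := IsPGroup.iff_card.1 (hP.to_le (inf_le_left (b := 𝐂[y])))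
  rw [hi] at c
  have c1 := (Nat.modEq_iff_dvd' (Nat.le_mul_of_pos_right _ hp.out.pos)).1 c.symm
  rw [← Nat.mul_sub_one] at c1
  have c2 := Nat.le_of_dvd (by have := hp.out.two_le; omega)
    ((((Nat.coprime_primes hr hp.out).2 rp).pow_right i).dvd_of_dvd_mul_left c1)
  have := hp.out.pos
  omega

theorem s4131 (Sim : SimStmt.{u}) {G : Type u} [Group G] [Finite G] (p : ℕ) [Fact p.Prime]
    (hp : p ∣ Nat.card G) (hmin : ∀ r : ℕ, r.Prime → r ∣ Nat.card G → p ≤ r)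
    (h : ∀ x : G, (∃ (r : ℕ) (k : ℕ), r.Prime ∧ r ≠ p ∧ orderOf x = r ^ k) →
      ¬ p ^ 2 ∣ (Subgroup.centralizer ({x} : Set G)).index) :
    Cfsg.HasNormalPComplement p G ∧ Group.IsSolvable G := by
  suffices hs : Group.IsSolvable G from ⟨npc_of_solv hs hmin h, hs⟩
  by_cases ev : 2 ∣ Nat.card G
  swap
  · exact feit_thompson G (Nat.odd_iff.2 (by omega))
  obtain rfl : p = 2 := le_antisymm (hmin 2 Nat.prime_two ev) (Fact.out : p.Prime).two_le
  refine L.isSolvable_of_closed (P := fun G _ _ => ∀ y : G, OP y → ¬ 4 ∣ 𝐂[y].index)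
    (fun G _ _ N _ k y oy e => k y (Red.op_map oy N.subtype)
      (e.trans (H9.index_centralizer_subgroup_dvd N y)))
    (fun G _ _ N _ k y oy e => ?_) (fun G _ _ hs k ns =>
      Sim G hs (L.not_isMulCommutative_of_not_isSolvable ns) k) G h
  obtain ⟨x, -, ox, rfl⟩ := Red.plift (QuotientGroup.mk' N) (H := ⊤) (y := y) (by
    rw [map_top_of_surjective _ (QuotientGroup.mk'_surjective N)]; trivial) oy
  exact k x ox (e.trans (H9.index_centralizer_mk_dvd N x))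

end Cfsg.Agent.P29
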