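/-
P29: groups of 2-rank at least 3 all of whose involution centralizers are 2-nilpotent.
-/
import Cfsg.Agent.P29.B

set_option autoImplicit false
set_option linter.unusedSectionVars false

namespace Cfsg.Agent.P29

open Subgroup Cfsg Cfsg.Agent Cfsg.Agent.FT Cfsg.Agent.P6 Cfsg.Agent.H2.ZC

universe u

variable {X : Type u} [Group X] [Finite X]

theorem pResidual_top (hs : IsSimpleGroup X) (hc : ¬ IsMulCommutative X) : pResidual 2 X = ⊤ := by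
  refine (hs.eq_bot_or_eq_top_of_normal _ inferInstance).resolve_left fun e => hc ?_
  have h := (H8.pResidual_eq_bot_iff Nat.prime_two).1 e
  haveI := H1.isSolvable_of_isPGroup h
  exact ⟨⟨IsSimpleGroup.comm_iff_isSolvable.2 this⟩⟩

theorem exists_conj_mem_syl {S : Subgroup X} (hS : IsSyl 2 S ⊤) {t : X} (it : Inv t) :
    ∃ g : X, g * t * g⁻¹ ∈ S := by
  obtain ⟨g, -, hg⟩ := hS.exists_conj_le Nat.prime_two it.isPGroup le_top
  exact ⟨g, hg (conj_mem_conj (mem_zpowers t) g)⟩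

theorem E8.conj {H : Subgroup X} (h : E8 H) (g : X) : E8 (H ^ᵍ g) :=
  let ⟨_, a, b⟩ := h; ⟨_, conj_mono a g, b.conj g⟩

theorem E8.of_conj {t g : X} (h : E8 𝐂[g * t * g⁻¹]) : E8 𝐂[t] := by
  have := h.conj g⁻¹
  rwa [cent1_conj, conj_conj_inv] at this

theorem ttStmt : TTStmt.{u} := by
  intro X _ _ hs hc h8 t it
  obtain ⟨S, hS⟩ := exists_isSyl Nat.prime_two (⊤ : Subgroup X)
  obtain ⟨U, hU, h4⟩ := exists_U hS.pgrp (h8.syl hS)
  obtain ⟨g, hg⟩ := exists_conj_mem_syl hS it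
  obtain ⟨k, hk⟩ := exists_conj_mem hS (inf_le_left : S ⊓ 𝐂(U) ≤ S)
    (by rw [inf_relIndex_left]; exact relIndex_cent_le_two hS.pgrp h4 hU.2) hg
    (by rw [pResidual_top hs hc]; trivial) (by rw [pow_two, (it.conj g).sq])
  exact ((e8_cent hS.pgrp hU h4 (h8.syl hS) hk.1 hk.2 ((it.conj g).conj k)).mono
    inf_le_right).of_conj.of_conj

theorem NC.csolv (h : NC (⊤ : Subgroup X)) : CSolv X := fun t h1 h2 => by
  have := H6.Cyc.solv_of_npc (h t ⟨h1, by rw [← pow_two, h2]⟩)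
  rwa [top_inf_eq] at this

theorem th_top (t : X) : th ⊤ t = oc t := by rw [th, top_inf_eq]; rfl

theorem exists_inv_center {S U : Subgroup X} (hS : IsPGroup 2 S) (hU : U ⊲ S) (h4 : IsElem 2 2 U) :
    ∃ z ∈ U, Inv z ∧ S ≤ 𝐂[z] := by
  obtain ⟨⟨z, hz⟩, z1⟩ := ne_bot_iff_exists_ne_one.1 (inf_center_ne_bot hS.isNilpotent hU
    fun e => by have := h4.card; rw [e, card_bot] at this; omega)
  exact ⟨z, hz.1, ⟨fun e => z1 (Subtype.ext e), sq_of_elem h4 hz.1⟩,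
    fun x hx => mem_cent1.2 (mem_cent.1 hz.2 x hx).symm⟩

/-- every involution of a Sylow 2-subgroup `S` centralizes an `E₈` of `S` -/
theorem NC.e8_inf (h : NC (⊤ : Subgroup X)) (ht : ∀ t : X, Inv t → E8 𝐂[t]) {S : Subgroup X}
    (hS : IsSyl 2 S ⊤) (h8 : E8 S) {s : X} (hs : s ∈ S) (is : Inv s) : E8 (S ⊓ 𝐂[s]) := by
  by_contra hn
  obtain ⟨U, hU, h4⟩ := exists_U hS.pgrp h8
  have sK : s ∉ 𝐂(U) := fun hc => hn (e8_cent hS.pgrp hU h4 h8 hs hc is)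
  obtain ⟨z, zU, iz, hz⟩ := exists_inv_center hS.pgrp hU h4
  have zK : z ∈ 𝐂(U) := h4.le_cent zU
  have ne : s ≠ z := fun e => sK (e ▸ zK)
  have hΩ := om_of_not_e8 (H := S ⊓ 𝐂[s]) is iz ne ⟨hs, self_mem_cent1 s⟩
    ⟨hU.1 zU, mem_cent1_comm.1 (hz hs)⟩ inf_le_right (inf_le_left.trans hz) hn
  obtain ⟨R, hR, hl⟩ := exists_isSyl_ge Nat.prime_two
    (hS.pgrp.to_le (inf_le_left : S ⊓ 𝐂[s] ≤ S)) inf_le_right
  obtain ⟨w, wN, -, e⟩ := h.swap hS iz (hU.1 zU) hz hs ne hΩ hR.pgrp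
    (lt_of_le_of_ne hl fun e => hn (e ▸ (ht s is).syl hR)) hR.le
  obtain ⟨x, hx⟩ := cyc_of_four hS.pgrp hs (card_le_four (hS.pgrp.to_le inf_le_left) hΩ
    (fun a ha => sq_mem_of_relIndex (relIndex_cent_le_two hS.pgrp h4 hU.2) ha.1) sK zK wN e)
  exact no_e8_of_cyc hx h8

theorem wc_eq_U (h : CSolv X) {S U E : Subgroup X} (hS : IsPGroup 2 S) (hU : U ⊲ S)
    (h4 : IsElem 2 2 U) (hE : IsElem 2 3 E) (hl : E ≤ S) : wc E = wc U := by
  obtain ⟨V, hV, e⟩ := exists_four_le hE hl (relIndex_cent_le_two hS h4 hU.2)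
  rw [h.wc_eq hE.1 (hV.trans inf_le_left) e, h.wc_eq_of_cent e h4 (hV.trans inf_le_right)]

theorem wc_eq_syl (h : CSolv X) {S E F : Subgroup X} (hS : IsPGroup 2 S) (hE : IsElem 2 3 E)
    (hl : E ≤ S) (hF : IsElem 2 3 F) (hl' : F ≤ S) : wc E = wc F := by
  obtain ⟨U, hU, h4⟩ := exists_U hS ⟨E, hl, hE⟩
  rw [wc_eq_U h hS hU h4 hE hl, wc_eq_U h hS hU h4 hF hl']

theorem oc_le_wc8 (h : CSolv X) {E : Subgroup X} (hE : IsElem 2 3 E) {s : X} (is : Inv s)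
    (hl : E ≤ 𝐂[s]) : oc s ≤ wc E := by
  obtain ⟨V, hV, e⟩ := hE.exists_le Nat.prime_two (by omega : 2 ≤ 3)
  refine (h.oc_le_wc e is.ne (by rw [pow_two, is.sq]) ?_).trans (wc_mono hV)
  exact mem_cent.2 fun x hx => (mem_cent1.1 (hl (hV hx))).symm

theorem NC.wc_eq_cent (h : NC (⊤ : Subgroup X)) {E F : Subgroup X} {s : X} (is : Inv s)
    (hE : IsElem 2 3 E) (hl : E ≤ 𝐂[s]) (hF : IsElem 2 3 F) (hl' : F ≤ 𝐂[s]) : wc E = wc F := by
  obtain ⟨R, hR, h1⟩ := exists_isSyl_ge Nat.prime_two hE.pgrp (le_inf le_top hl)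
  obtain ⟨g, hg, h2⟩ := hR.exists_conj_le Nat.prime_two hF.pgrp (le_inf le_top hl')
  obtain ⟨o, ho, r, hr, e⟩ := h.dec is hR (inv_mem hg)
  have h3 : F ^ᵍ o⁻¹ ≤ R := by
    rw [show o⁻¹ = r * g by rw [eq_mul_inv_of_mul_eq e.symm]; group, ← conj_conj]
    exact conj_le_of_mem h2 hr
  rw [wc_eq_syl h.csolv hR.pgrp hE h1 (hF.conj _) h3, wc_conj, conj_eq_of_mem]
  exact inv_mem (oc_le_wc8 h.csolv hF is hl' (th_top s ▸ ho))

theorem r3Stmt : R3Stmt.{u} := by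
  intro X _ _ h hO h8 ht
  obtain ⟨S, hS⟩ := exists_isSyl Nat.prime_two (⊤ : Subgroup X)
  have h8' := h8.syl hS
  obtain ⟨E, hl, hE⟩ := h8'
  have key : ∀ s ∈ S, Inv s → ∀ g : X, g * s * g⁻¹ ∈ S → g ∈ 𝐍(wc E) := fun s hs is g hg => by
    obtain ⟨A, a1, a2⟩ := h.e8_inf ht hS ⟨E, hl, hE⟩ hs is
    obtain ⟨B, b1, b2⟩ := h.e8_inf ht hS ⟨E, hl, hE⟩ hg (is.conj g)
    rw [← conj_eq_self_iff]
    conv_lhs => rw [wc_eq_syl h.csolv hS.pgrp hE hl a2 (a1.trans inf_le_left), ← wc_conj]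
    rw [h.wc_eq_cent (is.conj g) (a2.conj g) (by
      rw [cent1_conj]; exact conj_mono (a1.trans inf_le_right) g) b2 (b1.trans inf_le_right)]
    exact wc_eq_syl h.csolv hS.pgrp b2 (b1.trans inf_le_left) hE hl
  by_cases hM : 𝐍(wc E) = ⊤
  · have e : wc E = ⊥ := hO _ (normalizer_eq_top_iff.1 hM)
      (Nat.coprime_two_right.1 (h.csolv.e8 hE).1)
    refine Or.inl fun t x tt ox c => or_iff_not_imp_left.2 fun t1 => ?_
    have it : Inv t := ⟨t1, tt⟩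
    obtain ⟨A, a1, a2⟩ := ht t it
    obtain ⟨g, -, hg⟩ := hS.exists_conj_le Nat.prime_two a2.pgrp le_top
    have := wc_eq_syl h.csolv hS.pgrp (a2.conj g) hg hE hl
    rw [e, wc_conj, conj_eq_bot_iff] at this
    exact mem_bot.1 (this ▸ oc_le_wc8 h.csolv a2 it a1 (th_top t ▸ (h.mem_th it).2 ⟨trivial, c, ox⟩))
  · refine Or.inr ⟨_, hM, se_quot hS (fun g hg => ?_) key⟩
    obtain ⟨⟨a, ha⟩, a1⟩ := ne_bot_iff_exists_ne_one.1
      (show E ≠ ⊥ from fun e => by have := hE.card; rw [e, card_bot] at this; omega)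
    exact key a (hl ha) ⟨fun e => a1 (Subtype.ext e), sq_of_elem hE ha⟩ g
      (mul_mem (mul_mem hg (hl ha)) (inv_mem hg))

end Cfsg.Agent.P29
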