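/-
P29: simple groups of 2-rank two all of whose involution centralizers are 2-nilpotent.
-/
import Cfsg.Agent.P29.R3
import Cfsg.Agent.P7.R2

set_option autoImplicit false
set_option linter.unusedSectionVars false

namespace Cfsg.Agent.P29

open Subgroup Cfsg Cfsg.Agent Cfsg.Agent.FT Cfsg.Agent.P6

universe u

variable {X : Type u} [Group X] [Finite X]

namespace Rk

theorem mem_zp {S : Subgroup X} (g x : S) : g ∈ zpowers x ↔ (g : X) ∈ zpowers (x : X) :=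
  ⟨fun ⟨k, hk⟩ => ⟨k, congrArg Subtype.val hk⟩, fun ⟨k, hk⟩ => ⟨k, Subtype.ext hk⟩⟩

theorem max2_up {S : Subgroup X} (hS : IsSyl 2 S ⊤) {x z s : S}
    (h : P4.Max2 (⊤ : Subgroup S) x z s) : P4.Max2 S x z s :=
  ⟨hS, x.2, (mem_zp _ _).1 h.zx, fun e => h.z1 (Subtype.ext e), congrArg Subtype.val h.zz, s.2,
    fun e => h.sx ((mem_zp _ _).2 e), congrArg Subtype.val h.ss,
    fun g hg => (h.cover ⟨g, hg⟩ trivial).imp (mem_zp _ _).1 (mem_zp _ _).1,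
    fun y hy c => congrArg Subtype.val (h.cs ⟨y, zpowers_le.2 x.2 hy⟩ ((mem_zp _ _).2 hy)
      (Subtype.ext c))⟩

/-- the setting: `z` a central involution of the Sylow 2-subgroup `S` -/
structure Z (S : Subgroup X) (z : X) : Prop where
  nc : NC (⊤ : Subgroup X)
  n8 : ¬ E8 (⊤ : Subgroup X)
  syl : IsSyl 2 S ⊤
  iz : Inv z
  zS : z ∈ S
  hz : S ≤ 𝐂[z]

namespace Z

variable {S : Subgroup X} {z : X} (h : Z S z)
include h

theorem om {u : X} (uS : u ∈ S) (iu : Inv u) (ne : u ≠ z) : Om (S ⊓ 𝐂[u]) u z :=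
  om_of_not_e8 iu h.iz ne ⟨uS, self_mem_cent1 u⟩ ⟨h.zS, mem_cent1_comm.1 (h.hz uS)⟩ inf_le_right
    (inf_le_left.trans h.hz) fun e => h.n8 (e.mono le_top)

theorem fix {g : X} (hg : g ∈ S) : g * z * g⁻¹ = z := mem_cent1_iff_conj.1 (h.hz hg)

theorem swap {u g : X} (uS : u ∈ S) (e : g * z * g⁻¹ = u) (nc : ¬ S ≤ 𝐂[u]) :
    ∃ w ∈ 𝐍(S ⊓ 𝐂[u]), w * u * w⁻¹ = u ∧ w * z * w⁻¹ = u * z := by
  have iu : Inv u := e ▸ h.iz.conj g
  have ne : u ≠ z := fun e' => nc (e' ▸ h.hz)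
  obtain ⟨R, hR, hl⟩ := exists_isSyl_ge Nat.prime_two
    (h.syl.pgrp.to_le (inf_le_left : S ⊓ 𝐂[u] ≤ S)) inf_le_right
  refine h.nc.swap h.syl h.iz h.zS h.hz uS ne (h.om uS iu ne) hR.pgrp
    (lt_of_le_of_ne hl fun e' => nc ?_) hR.le
  have h1 := hR.card_dvd Nat.prime_two (Q := S ^ᵍ g) (h.syl.conj g).pgrp (by
    rw [← e, cent1_conj]; exact conj_mono h.hz g)
  rw [card_conj, ← e'] at h1
  exact (H1.eq_of_le_of_card_le (inf_le_left : S ⊓ 𝐂[u] ≤ S)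
    (Nat.le_of_dvd Nat.card_pos h1)).ge.trans inf_le_right

theorem max2 {u g : X} (uS : u ∈ S) (e : g * z * g⁻¹ = u) {K : Subgroup X}
    (hK : ∀ a ∈ S ⊓ 𝐂[u], a * a ∈ K) (uK : u ∉ K) (zK : z ∈ K) (nc : ¬ S ≤ 𝐂[u]) :
    ∃ x z' s : S, P4.Max2 (⊤ : Subgroup S) x z' s := by
  have iu : Inv u := e ▸ h.iz.conj g
  have ne : u ≠ z := fun e' => nc (e' ▸ h.hz)
  obtain ⟨w, wN, -, e'⟩ := h.swap uS e nc
  have h4 := card_le_four (h.syl.pgrp.to_le inf_le_left) (h.om uS iu ne) hK uK zK wN e'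
  have hV := H2.ZC.isElem_two h.iz.ne (by rw [pow_two, h.iz.sq]) iu.ne (by rw [pow_two, iu.sq]) ne
    (h.hz uS)
  have hl : zpowers z ⊔ zpowers u ≤ S ⊓ 𝐂[u] := sup_le (zpowers_le.2
    ⟨h.zS, mem_cent1_comm.1 (h.hz uS)⟩) (zpowers_le.2 ⟨uS, self_mem_cent1 u⟩)
  have he := H1.eq_of_le_of_card_le hl (by rw [hV.card]; exact h4)
  have sc : P4.SelfCent (⟨z, h.zS⟩ : S) ⟨u, uS⟩ :=
    ⟨fun e => h.iz.ne (congrArg Subtype.val e), fun e => iu.ne (congrArg Subtype.val e),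
      fun e => ne (congrArg Subtype.val e).symm, Subtype.ext h.iz.sq, Subtype.ext iu.sq,
      Subtype.ext (mem_cent1.1 (h.hz uS)), fun a _ c => by
        have ha : (a : X) ∈ S ⊓ 𝐂[u] := ⟨a.2, mem_cent1.2 (congrArg Subtype.val c)⟩
        rcases h.om uS iu ne a ha (sq_of_elem hV (he.ge ha)) with e | e | e | e
        · exact Or.inl (Subtype.ext e)
        · exact Or.inr (Or.inr (Or.inl (Subtype.ext e)))
        · exact Or.inr (Or.inl (Subtype.ext e))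
        · exact Or.inr (Or.inr (Or.inr (Subtype.ext (e.trans (mem_cent1.1 (h.hz uS)).symm))))⟩
  exact sc.exists_max2' ⟨le_rfl, h.syl.pgrp.to_subgroup _, by simp⟩ trivial
    (mem_cent.2 fun a _ => Subtype.ext (mem_cent1.1 (h.hz a.2)).symm) trivial

/-- an element of the normalizer of `C_S(t)` in `S` fixes `t` or maps it to `t z` -/
theorem move {t w : X} (tS : t ∈ S) (it : Inv t) (ne : t ≠ z) (wS : w ∈ S)
    (wN : w ∈ 𝐍(S ⊓ 𝐂[t])) : w * t * w⁻¹ = t ∨ w * t * w⁻¹ = t * z := by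
  rcases h.om tS it ne _ (P4.conj_mem wN ⟨tS, self_mem_cent1 t⟩) (it.conj w).sq with e | e | e | e
  · exact absurd e (it.conj w).ne
  · exact Or.inl e
  · exact absurd ((MulAut.conj w).injective (e.trans (h.fix wS).symm)) ne
  · exact Or.inr e

theorem mul_mem {t a b : X} (tS : t ∈ S) (it : Inv t) (ne : t ≠ z) (ha : a ∈ S ⊓ 𝐍(S ⊓ 𝐂[t]))
    (hb : b ∈ S ⊓ 𝐍(S ⊓ 𝐂[t])) (a1 : a ∉ S ⊓ 𝐂[t]) (b1 : b ∉ S ⊓ 𝐂[t]) : b * a ∈ S ⊓ 𝐂[t] := by
  have e1 := (h.move tS it ne ha.1 ha.2).resolve_left fun e => a1 ⟨ha.1, mem_cent1_iff_conj.2 e⟩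
  have e2 := (h.move tS it ne hb.1 hb.2).resolve_left fun e => b1 ⟨hb.1, mem_cent1_iff_conj.2 e⟩
  refine ⟨S.mul_mem hb.1 ha.1, mem_cent1_iff_conj.2 ?_⟩
  calc b * a * t * (b * a)⁻¹ = b * (a * t * a⁻¹) * b⁻¹ := by group
    _ = b * t * b⁻¹ * (b * z * b⁻¹) := by rw [e1]; group
    _ = t := by rw [e2, h.fix hb.1, mul_assoc, h.iz.sq, mul_one]

theorem cent_mul {t : X} : S ⊓ 𝐂[t * z] = S ⊓ 𝐂[t] := by
  ext a
  refine and_congr_right fun ha => ?_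
  have := mem_cent1.1 (h.hz ha)
  change a ∈ 𝐂[t * z] ↔ a ∈ 𝐂[t]
  rw [mem_cent1, mem_cent1, mul_assoc, this, ← mul_assoc, ← mul_assoc, mul_left_inj]

/-- elements of order at least four outside `C_S(t)` are not fused into it -/
theorem not_fused {t g0 : X} (tS : t ∈ S) (e0 : g0 * z * g0⁻¹ = t) (nc : ¬ S ≤ 𝐂[t])
    (hn : S ≤ 𝐍(S ⊓ 𝐂[t])) {a g : X} (aS : a ∈ S) (a1 : a ∉ S ⊓ 𝐂[t])
    (hg : g * a * g⁻¹ ∈ S ⊓ 𝐂[t]) : ∃ k, k * z * k⁻¹ = a := by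
  have it : Inv t := e0 ▸ h.iz.conj g0
  have ne : t ≠ z := fun e' => nc (e' ▸ h.hz)
  obtain ⟨w, wN, -, e'⟩ := h.swap tS e0 nc
  have e1 := (h.move tS it ne aS (hn aS)).resolve_left fun e => a1 ⟨aS, mem_cent1_iff_conj.2 e⟩
  have key : ∀ c ∈ S ⊓ 𝐂[t], Inv c → ∃ n ∈ 𝐍(S ⊓ 𝐂[t]), n * c * n⁻¹ = z := fun c hc ic => by
    have e2 : w⁻¹ * (t * z) * w⁻¹⁻¹ = z := by rw [← e']; group
    rcases h.om tS it ne c hc ic.sq with e | e | e | e
    · exact absurd e ic.ne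
    · refine ⟨w⁻¹ * a, Subgroup.mul_mem _ (inv_mem wN) (hn aS), ?_⟩
      rw [e, ← e2, ← e1]; group
    · exact ⟨1, one_mem _, by rw [e]; group⟩
    · exact ⟨w⁻¹, inv_mem wN, e ▸ e2⟩
  by_cases aa : a * a = 1
  · obtain ⟨n, -, e⟩ := key _ hg (Inv.conj (a := a) ⟨fun e => a1 (e ▸ one_mem _), aa⟩ g)
    exact ⟨(n * g)⁻¹, by rw [← e]; group⟩
  exfalso
  have a2 : a * a ∈ S ⊓ 𝐂[t] := h.mul_mem tS it ne ⟨aS, hn aS⟩ ⟨aS, hn aS⟩ a1 a1
  obtain ⟨c, hc, c1, cc⟩ := P4.exists_invol (h.syl.pgrp.to_le (zpowers_le.2 a2.1))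
    (zpowers_ne_bot.2 aa)
  have ca : c ∈ zpowers a := zpowers_le.2 (Subgroup.mul_mem _ (mem_zpowers a) (mem_zpowers a)) hc
  have cc' : a ∈ 𝐂[c] := by
    obtain ⟨k, rfl⟩ := ca
    exact mem_cent1.2 (Commute.zpow_self a k)
  have cz : c = z := by
    rcases h.om tS it ne c (zpowers_le.2 a2 hc) cc with e | e | e | e
    · exact absurd e c1
    · exact absurd ⟨aS, e ▸ cc'⟩ a1
    · exact e
    · exact absurd (h.cent_mul ▸ (⟨aS, e ▸ cc'⟩ : a ∈ S ⊓ 𝐂[t * z])) a1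
  have h3 : g * z * g⁻¹ ∈ S ⊓ 𝐂[t] := by
    have := conj_mem_conj (cz ▸ ca) g
    rw [← zpowers_conj] at this
    exact zpowers_le.2 hg this
  obtain ⟨n, nN, e⟩ := key _ h3 (h.iz.conj g)
  have h4 : n * g * a * (n * g)⁻¹ ∈ S ⊓ 𝐂[t] := by
    rw [show n * g * a * (n * g)⁻¹ = n * (g * a * g⁻¹) * n⁻¹ by group]
    exact P4.conj_mem nN hg
  obtain ⟨r, hr, e3⟩ := h.nc.fus h.iz (h.nc.dec' h.syl h.iz h.hz) (g := n * g)
    ⟨trivial, mem_cent1_iff_conj.2 (Eq.trans (by group) e)⟩ aS h4.1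
  refine a1 ?_
  have := P4.conj_mem (inv_mem (hn hr)) (e3 ▸ h4)
  rwa [show r⁻¹ * (r * a * r⁻¹) * r⁻¹⁻¹ = a by group] at this

theorem exists_max2 [IsSimpleGroup X] (na : ¬ IsMulCommutative X) {t g0 : X} (tS : t ∈ S)
    (e0 : g0 * z * g0⁻¹ = t) (nc : ¬ S ≤ 𝐂[t]) :
    ∃ x z' s : S, P4.Max2 (⊤ : Subgroup S) x z' s := by
  have it : Inv t := e0 ▸ h.iz.conj g0
  have ne : t ≠ z := fun e' => nc (e' ▸ h.hz)
  suffices ∃ u g, u ∈ S ∧ u ∉ S ⊓ 𝐂[t] ∧ g * z * g⁻¹ = u ∧ S ⊓ 𝐂[u] ≤ 𝐍(S ⊓ 𝐂[t]) by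
    obtain ⟨u, g, uS, u1, e, hl⟩ := this
    refine h.max2 uS e (K := S ⊓ 𝐂[t]) (fun a ha => ?_) u1 ⟨h.zS, mem_cent1_comm.1 (h.hz tS)⟩
      fun hc => u1 ⟨uS, mem_cent1_comm.1 (hc tS)⟩
    by_cases a1 : a ∈ S ⊓ 𝐂[t]
    · exact Subgroup.mul_mem _ a1 a1
    · exact h.mul_mem tS it ne ⟨ha.1, hl ha⟩ ⟨ha.1, hl ha⟩ a1 a1
  by_cases hn : S ≤ 𝐍(S ⊓ 𝐂[t])
  · obtain ⟨a0, a0S, a01⟩ := SetLike.not_le_iff_exists.1 nc
    have a02 : a0 ∉ S ⊓ 𝐂[t] := fun e => a01 e.2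
    have hi : (S ⊓ 𝐂[t]).relIndex S = 2 := relIndex_eq_two_iff_exists_notMem_and.2
      ⟨a0, a0S, a02, fun b hb => or_iff_not_imp_right.2 fun b1 =>
        h.mul_mem tS it ne ⟨a0S, hn a0S⟩ ⟨hb, hn hb⟩ a02 b1⟩
    by_contra hc
    have k1 : ∀ a ∈ S, ∀ g : X, g * a * g⁻¹ ∈ S ⊓ 𝐂[t] → a ∈ S ⊓ 𝐂[t] := fun a ha g hg => by
      by_contra a1
      obtain ⟨k, e⟩ := h.not_fused tS e0 nc hn ha a1 hg
      exact hc ⟨a, k, ha, a1, e, inf_le_left.trans hn⟩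
    obtain ⟨N, hN, -⟩ := P4.exists_index_two_of_fusion (S := S) (D := S ⊓ 𝐂[t])
      (by have := h.syl.ndvd; rwa [relIndex_top_right, ← even_iff_two_dvd, Nat.not_even_iff_odd] at this)
      hi fun a ha g hg => ⟨fun e => k1 _ hg g⁻¹ (by simpa [mul_assoc] using e), k1 a ha g⟩
    exact H6.Cyc.index_ne_two na N hN
  · obtain ⟨w, wS, wN, w1⟩ := H1.exists_mem_normalizer_of_lt h.syl.pgrp.isNilpotent
      (lt_of_le_of_ne (inf_le_left : S ⊓ 𝐍(S ⊓ 𝐂[t]) ≤ S) fun e => hn (e.ge.trans inf_le_right))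
    have l12 : S ⊓ 𝐂[t] ≤ S ⊓ 𝐍(S ⊓ 𝐂[t]) := le_inf inf_le_left le_normalizer
    have ec : (S ⊓ 𝐂[t]) ^ᵍ w = S ⊓ 𝐂[w * t * w⁻¹] := by
      rw [conj_inf, conj_eq_of_mem wS, cent1_conj]
    have uS : w * t * w⁻¹ ∈ S := S.mul_mem (S.mul_mem wS tS) (inv_mem wS)
    refine ⟨w * t * w⁻¹, w * g0, uS, fun hu => w1 ⟨wS, conj_eq_self_iff.1 ?_⟩,
      by rw [← e0]; group, ?_⟩
    · rw [ec]
      rcases h.om tS it ne _ hu (it.conj w).sq with e | e | e | e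
      · exact absurd e (it.conj w).ne
      · rw [e]
      · exact absurd ((MulAut.conj w).injective (e.trans (h.fix wS).symm)) ne
      · rw [e, h.cent_mul]
    · rw [← ec]
      exact ((conj_mono l12 w).trans (conj_eq_of_mem_norm wN).le).trans inf_le_right

end Z

theorem dih [IsSimpleGroup X] (na : ¬ IsMulCommutative X) (nc : NC (⊤ : Subgroup X))
    {S : Subgroup X} (hS : IsSyl 2 S ⊤) {x z s : S} (h : P4.Max2 (⊤ : Subgroup S) x z s) :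
    s * x * s = x⁻¹ := by
  by_contra hd
  obtain ⟨-, -, N, hN, xN, hI⟩ := h.sd le_top hd
  have m := max2_up hS h
  have iz : Inv (z : X) := ⟨m.z1, m.zz⟩
  have hm : ∀ a : S, (a : X) ∈ N.map S.subtype ↔ a ∈ N := fun a =>
    mem_map_iff_mem S.subtype_injective
  have := normal_of_index_eq_two hN
  obtain ⟨M, hM, -⟩ := P4.exists_index_two_of_fusion (S := S) (D := N.map S.subtype) m.odd_index
    (by rw [relIndex, subgroupOf, comap_map_eq_self_of_injective S.subtype_injective, hN])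
    fun a ha g hg => by
      by_cases aa : a * a = 1
      · exact iff_of_true ((hm ⟨a, ha⟩).2 (hI _ trivial (Subtype.ext aa)))
          ((hm ⟨_, hg⟩).2 (hI _ trivial (Subtype.ext (P4.conj_sq aa g))))
      · have h3 := conj_mem_conj (m.z_mem_zpowers ha aa) g
        rw [← zpowers_conj, ← conj_mul] at h3
        have h4 := (m.uniq (zpowers_le.2 ((m.mul_mem_iff hg hg).2 Iff.rfl) h3)
          (P4.conj_sq m.zz g)).resolve_left (P4.conj_ne_one m.z1 g)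
        obtain ⟨r, hr, e⟩ := nc.fus iz (nc.dec' hS iz m.le_cent) (g := g)
          ⟨trivial, mem_cent1_iff_conj.2 h4⟩ ha hg
        rw [e]
        refine (hm ⟨a, ha⟩).trans (Iff.trans ?_ (hm (⟨r, hr⟩ * ⟨a, ha⟩ * ⟨r, hr⟩⁻¹)).symm)
        rw [this.mem_comm_iff, ← mul_assoc, inv_mul_cancel, one_mul]
  exact H6.Cyc.index_ne_two na M hM

end Rk

theorem rk2Stmt (Ly : LyStmt.{u}) : Rk2Stmt.{u} := by
  intro X _ _ hs na nc n8
  refine or_iff_not_imp_left.2 fun h8 => ?_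
  rw [not_not] at h8
  obtain ⟨S, hS⟩ := exists_isSyl Nat.prime_two (⊤ : Subgroup X)
  have h8S : 8 ∣ 𝐨(S) := by
    have h3 := hS.ndvd
    rw [← card_top, ← H1.card_mul_relIndex hS.le] at h8
    exact ((Nat.prime_two.coprime_iff_not_dvd.2 h3).pow_left 3).dvd_of_dvd_mul_right h8
  obtain ⟨z, zS, zc, z1, zz⟩ := P4.exists_invol_center hS.pgrp ⟨le_rfl, le_normalizer⟩
    fun e => by rw [e, card_bot] at h8S; omega
  have h : Rk.Z S z := ⟨nc, n8, hS, ⟨z1, zz⟩, zS,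
    fun x hx => mem_cent1.2 (mem_cent.1 zc x hx).symm⟩
  obtain ⟨g, hg, hne⟩ : ∃ g, g * z * g⁻¹ ∈ S ∧ g * z * g⁻¹ ≠ z := by
    by_contra h0
    push Not at h0
    obtain ⟨P, rfl⟩ := hS.exists_sylow_top Nat.prime_two
    have h2 := P1.zstar_sylow P h.iz.orderOf_eq zS h0
    rcases (inferInstance : (pPrimeCore 2 X).Normal).eq_bot_or_eq_top with e | e
    · refine H6.Cyc.cent1_ne_top' na z1 (eq_top_iff.2 fun x _ => mem_cent1.2 ?_)
      have := h2 x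
      rwa [e, mem_bot, commutatorElement_eq_one_iff_mul_comm] at this
    · have := L.coprime_card_pPrimeCore (G := X) 2
      rw [e, card_top] at this
      exact absurd (this.coprime_dvd_left ((by norm_num : 2 ∣ 8).trans h8)) (by norm_num)
  by_cases hc : S ≤ 𝐂[g * z * g⁻¹]
  · exfalso
    have hΩ := h.om hg (h.iz.conj g) hne
    rw [inf_eq_left.2 hc] at hΩ
    have c1 : g * z * g⁻¹ ∈ 𝐂(S) := mem_cent.2 fun x hx => (mem_cent1.1 (hc hx)).symm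
    have ab := Ly X hs na nc n8 S hS fun t ht it => by
      rcases hΩ t ht it.sq with e | e | e | e <;> rw [e]
      exacts [one_mem _, c1, zc, mul_mem c1 zc]
    have r2 := P7.r2 na (fun P hP => by
      obtain ⟨k, -, hk⟩ := hS.exists_conj_le Nat.prime_two hP le_top
      rw [isMulComm_iff_le_cent] at ab ⊢
      rw [← conj_le_conj_iff (g := k), ← cent_conj]
      exact hk.trans (ab.trans (cent_anti hk))) (by
        by_contra h3
        exact n8 ((le_pRank_iff Nat.prime_two).1 (by omega)))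
    have all : ∀ a ∈ S, a * a = 1 := by
      have : ∀ k : ℕ, ∀ a : X, a ^ 2 ^ k = 1 → a * a = 1 := fun k => by
        induction k with
        | zero => intro a e; rw [pow_zero, pow_one] at e; rw [e, mul_one]
        | succ k ih =>
          intro a e
          refine r2 a ?_
          have := ih (a ^ 2) (by rw [← pow_mul, ← pow_succ', e])
          rwa [← pow_add] at this
      intro a ha
      obtain ⟨k, hk⟩ := hS.pgrp ⟨a, ha⟩
      exact this k a (congrArg Subtype.val hk)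
    have h4 : (S : Set X) ⊆ {1, g * z * g⁻¹, z, g * z * g⁻¹ * z} := fun a ha => by
      simpa using hΩ a ha (all a ha)
    have h5 : 𝐨(S) ≤ 4 := by
      refine (Set.ncard_le_ncard h4).trans ((Set.ncard_insert_le _ _).trans ?_)
      refine (Nat.succ_le_succ (Set.ncard_insert_le _ _)).trans ?_
      refine (Nat.succ_le_succ (Nat.succ_le_succ (Set.ncard_insert_le _ _))).trans ?_
      rw [Set.ncard_singleton]
    have := Nat.le_of_dvd Nat.card_pos h8S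
    omega
  · obtain ⟨x, z', s, m⟩ := h.exists_max2 na hg rfl hc
    exact ⟨S, x, z', s, Rk.max2_up hS m, congrArg Subtype.val (Rk.dih na nc hS m)⟩

end Cfsg.Agent.P29
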