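/-
P29: strongly embedded subgroups, and the core statement.
-/
import Cfsg.Agent.P29.R3
import Cfsg.Agent.P5.Final
import Cfsg.Agent.H5.ThompsonJ

set_option autoImplicit false
set_option linter.unusedSectionVars false

namespace Cfsg.Agent.P29

open Subgroup MulAction Cfsg Cfsg.Agent Cfsg.Agent.FT Cfsg.Agent.P6 Cfsg.Agent.H2.ZC

universe u

section
variable {X : Type u} [Group X] [Finite X] {Y : Type u} [Group Y] [Finite Y] {f : X →* Y}

theorem lift_inv (hf : Function.Surjective f) (ho : Odd 𝐨(f.ker)) {t : Y} (it : Inv t) :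
    ∃ s, Inv s ∧ f s = t := by
  obtain ⟨x, rfl, l, hl⟩ := H1.exists_lift_pElement hf Nat.prime_two (y := t) (k := 1)
    (by rw [pow_one, pow_two, it.sq])
  refine ⟨x, ⟨fun e => it.ne (by rw [e, map_one]), P4.eq_one_of_odd_of_pow (n := l)
    (odd_orderOf_of_mem ho (by rw [MonoidHom.mem_ker, map_mul, it.sq])) ?_⟩, rfl⟩
  rw [(Commute.refl x).mul_pow, hl, one_mul]

theorem map_inv_of_odd (ho : Odd 𝐨(f.ker)) {s : X} (is : Inv s) : Inv (f s) :=
  ⟨fun e => is.not_mem_of_odd ho e, by rw [← map_mul, is.sq, map_one]⟩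

theorem NC.map (h : NC (⊤ : Subgroup X)) (hf : Function.Surjective f) (ho : Odd 𝐨(f.ker)) :
    NC (⊤ : Subgroup Y) := fun t it => by
  obtain ⟨s, is, rfl⟩ := lift_inv hf ho it
  refine ((hasNPC_iff Nat.prime_two).2 (H8.hasNPC_map
    ((hasNPC_iff Nat.prime_two).1 (h s is)) f)).of_le Nat.prime_two fun y hy => ?_
  obtain ⟨y, rfl⟩ := hf y
  have k : s * (y * s * y⁻¹) ∈ f.ker := by
    rw [MonoidHom.mem_ker, map_mul, map_mul, map_mul, map_inv, mem_cent1_iff_conj.1 hy.2, it.sq]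
  obtain ⟨c, hc, e⟩ := exists_conj_of_odd is (is.conj y) (odd_orderOf_of_mem ho k)
  refine ⟨c⁻¹ * y, ⟨trivial, mem_cent1_iff_conj.2 ?_⟩, ?_⟩
  · rw [show c⁻¹ * y * s * (c⁻¹ * y)⁻¹ = c⁻¹ * (y * s * y⁻¹) * c by group, ← e]; group
  · rw [map_mul, map_inv, show f c = 1 from zpowers_le.2 k hc, inv_one, one_mul]

theorem ker_inf_eq_bot (ho : Odd 𝐨(f.ker)) {P : Subgroup X} (hP : IsPGroup 2 P) : f.ker ⊓ P = ⊥ :=
  eq_bot_iff.2 fun _ hx => P4.eq_one_of_odd_of_mem hP (odd_orderOf_of_mem ho hx.1) hx.2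

theorem E8.map {H : Subgroup X} (h : E8 H) (ho : Odd 𝐨(f.ker)) : E8 (⊤ : Subgroup Y) :=
  let ⟨E, _, b⟩ := h
  ⟨E.map f, le_top, H5.elemAb_map f b.1,
    (H5.card_map_of_ker_inf_eq_bot f (ker_inf_eq_bot ho b.pgrp) le_rfl).trans b.card⟩

theorem E8.sub {H : Subgroup X} (h : E8 H) : E8 (⊤ : Subgroup H) :=
  let ⟨E, a, b⟩ := h
  ⟨E.subgroupOf H, le_top, (isElem_map_iff H.subtype_injective).1
    (by rwa [subgroupOf_map_subtype, inf_eq_left.2 a])⟩

theorem E8.exists_inv {H : Subgroup X} (h : E8 H) : ∃ a ∈ H, Inv a := by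
  obtain ⟨E, a, b⟩ := h
  obtain ⟨t, h1, h2⟩ := exists_inv_of_even (X := E) (by rw [b.card]; decide)
  exact ⟨t, a h1, h2⟩

theorem E8.cent_of_conj (h : E8 (⊤ : Subgroup X))
    (hc : ∀ a b : X, Inv a → Inv b → ∃ g, g * a * g⁻¹ = b) (t : X) (it : Inv t) : E8 𝐂[t] := by
  obtain ⟨E, -, b⟩ := h
  obtain ⟨a, h1, ia⟩ := E8.exists_inv ⟨E, le_rfl, b⟩
  obtain ⟨g, e⟩ := hc t a it ia
  refine E8.of_conj (g := g) ⟨E, fun x hx => ?_, b⟩
  rw [e]; exact mem_cent1.2 (mem_cent.1 (b.le_cent hx) a h1)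

theorem not_solv (h1 : O1 X) (h2 : pCore 2 X = ⊥) (h8 : E8 (⊤ : Subgroup X)) :
    ¬ Group.IsSolvable X := fun hs => by
  obtain ⟨a, -, ia⟩ := h8.exists_inv
  haveI : Nontrivial X := ⟨a, 1, ia.ne⟩
  obtain ⟨M, p, hM, hp, hE⟩ := L.exists_isMinNormal_isElementaryAbelian (G := X)
  have hP := L.IsElementaryAbelian.isPGroup hE
  by_cases e : p = 2
  · subst e
    exact hM.2.1 (eq_bot_iff.2 (h2 ▸ L.le_pCore hM.1 hP))
  · exact hM.2.1 (h1 M hM.1 (odd_of_isPGroup hp e hP))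

end

theorem se3Stmt (hR : R3Stmt.{u}) (hC : CitStmt.{u}) : SE3Stmt.{u} := by
  intro X _ _
  induction' hn : Nat.card X using Nat.strong_induction_on with n ih generalizing X
  rintro h ⟨M, hM, se⟩ h8 P hP a ha b hb ia ib
  obtain ⟨S, hS, hPS⟩ := exists_isSyl_ge Nat.prime_two hP (le_top (a := P))
  obtain ⟨z, -, hz, z1, zz⟩ := P4.exists_invol_center hS.pgrp ⟨le_rfl, le_normalizer⟩
    (fun e => ia.ne (mem_bot.1 (e ▸ hPS ha)))
  have iz : Inv z := ⟨z1, zz⟩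
  obtain ⟨α, hα⟩ := se.ex iz
  have hSH : S ≤ stabilizer X α := fun x hx =>
    se.cent1_le iz hα (mem_cent1.2 (mem_cent.1 hz x hx).symm)
  obtain ⟨β, hβ⟩ : ∃ β : X ⧸ M, α ≠ β := by
    by_contra hc
    push Not at hc
    exact hM (eq_top_iff.2 fun x _ => by
      simpa using QuotientGroup.eq.1 ((hc ((1 : X) : X ⧸ M)).symm.trans (hc (x : X ⧸ M))))
  obtain ⟨g, rfl⟩ := exists_smul_eq X α β
  set H := stabilizer X α
  have hH : H ≠ ⊤ := fun e => hβ (mem_stabilizer_iff.1 (e ▸ mem_top g : g ∈ H)).symm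
  let f := QuotientGroup.mk' (pPrimeCore 2 H)
  have hf : Function.Surjective f := QuotientGroup.mk'_surjective _
  have ho : Odd 𝐨(f.ker) := by
    rw [QuotientGroup.ker_mk']; exact Nat.coprime_two_right.1 (L.coprime_card_pPrimeCore 2)
  have hY := (h.top (le_top (a := H))).map hf ho
  have hO : O1 (H ⧸ pPrimeCore 2 H) := fun N hN hN' => eq_bot_iff.2
    (L.pPrimeCore_quotient_pPrimeCore (G := H) Nat.prime_two ▸
      L.le_pPrimeCore hN (Nat.coprime_two_right.2 hN'))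
  have hY8 := ((h8.syl hS).mono hSH).sub.map ho
  have hD : ∀ c d : H ⧸ pPrimeCore 2 H, Inv c → Inv d →
      ∃ k ∈ ((St2 X α (g • α)).subgroupOf H).map f, k * c * k⁻¹ = d := fun c d ic jd => by
    obtain ⟨c, ic', rfl⟩ := lift_inv hf ho ic
    obtain ⟨d, jd', rfl⟩ := lift_inv hf ho jd
    obtain ⟨k, hk, e⟩ := se.exists_conj_St2 (N := ⊤)
      (map_inv_of_odd (f := H.subtype) (by simp) ic') (map_inv_of_odd (f := H.subtype) (by simp) jd')
      c.2 d.2 hβ trivial trivial ⟨_, trivial, iz.conj g, conj_fix hα⟩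
    refine ⟨f ⟨k, hk.2.1⟩, ⟨_, hk.2, rfl⟩, ?_⟩
    rw [← map_inv, ← map_mul, ← map_mul]
    exact congrArg f (Subtype.ext e)
  have hP' : IsPGroup 2 (P.subgroupOf H) := hP.comap_of_injective _ H.subtype_injective
  let a' : H := ⟨a, hSH (hPS ha)⟩
  let b' : H := ⟨b, hSH (hPS hb)⟩
  have ia' : Inv (f a') := map_inv_of_odd ho ⟨fun e => ia.ne (congrArg Subtype.val e), Subtype.ext ia.sq⟩
  have ib' : Inv (f b') := map_inv_of_odd ho ⟨fun e => ib.ne (congrArg Subtype.val e), Subtype.ext ib.sq⟩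
  suffices c : Commute (f a') (f b') by
    have : a' * b' * (b' * a')⁻¹ ∈ f.ker ⊓ P.subgroupOf H := ⟨MonoidHom.mem_ker.2 (by
      rw [map_mul, map_inv, map_mul, map_mul, c.eq, mul_inv_cancel]), P.mul_mem (P.mul_mem ha hb) (P.inv_mem (P.mul_mem hb ha))⟩
    rw [ker_inf_eq_bot ho hP', mem_bot, mul_inv_eq_one] at this
    exact congrArg Subtype.val this
  by_cases h2 : pCore 2 (H ⧸ pPrimeCore 2 H) = ⊥
  · refine ih _ ?_ _ rfl hY ?_ hY8 _ (hP'.map f) _ ⟨a', ha, rfl⟩ _ ⟨b', hb, rfl⟩ ia' ib'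
    · rw [← hn]
      refine lt_of_le_of_lt (Nat.card_le_card_of_surjective f hf) ?_
      rw [← card_top (G := X)]
      exact L.card_lt_of_lt (lt_top_iff_ne_top.2 hH)
    · rcases hR _ hY hO hY8 (hY8.cent_of_conj fun c d ic id =>
        let ⟨k, _, e⟩ := hD c d ic id; ⟨k, e⟩) with e | e
      · refine (hC _ e h2 (not_solv hO h2 hY8) hY8).resolve_right fun e => e.2 _ ?_ hD
        exact Odd.of_dvd_nat (se.odd_St2 hβ) ((card_map_dvd _ f).trans
          (card_comap_dvd_of_injective _ _ H.subtype_injective))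
      · exact e
  · obtain ⟨w, hw, wc, w1, ww⟩ := P4.exists_invol_center (L.isPGroup_pCore 2)
      ⟨le_rfl, le_normalizer⟩ h2
    obtain ⟨k, -, e⟩ := hD w _ ⟨w1, ww⟩ ia'
    obtain ⟨l, -, e'⟩ := hD w _ ⟨w1, ww⟩ ib'
    have : f a' ∈ 𝐂(pCore 2 (H ⧸ pPrimeCore 2 H)) :=
      e ▸ (inferInstance : (𝐂(pCore 2 (H ⧸ pPrimeCore 2 H))).Normal).conj_mem _ wc k
    exact (mem_cent.1 this _ (e' ▸ (inferInstance : (pCore 2 _).Normal).conj_mem _ hw l)).symm

section
variable {B : Type u} [Group B] [Finite B] {L : Subgroup B}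

theorem exists_inv_comm {K : Subgroup B} {t : B} (it : Inv t) (hn : t ∈ 𝐍(K)) (h : ¬ Odd 𝐨(K)) :
    ∃ u ∈ K, Inv u ∧ Commute t u := by
  have := ncard_modEq_cent Nat.prime_two it.isPGroup (S := K)
    fun x hx s hs => P4.conj_mem (zpowers_le.2 hn hx) hs
  obtain ⟨u, hu, iu⟩ := exists_inv_of_even (X := K ⊓ 𝐂[t]) fun e => h (by
    rw [cent_zpowers] at this
    exact Nat.odd_iff.2 (Eq.trans this (Nat.odd_iff.1 e)))
  exact ⟨u, hu.1, iu, mem_cent1.1 hu.2⟩

theorem mem_of_forall_OP {K : Subgroup B} {g : B} (ho : Odd (orderOf g))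
    (h : ∀ y ∈ zpowers g, OP y → y ∈ K) : g ∈ K := by
  induction' hn : orderOf g using Nat.strong_induction_on with n ih generalizing g
  by_cases e : orderOf g = 1
  · rw [orderOf_eq_one_iff.1 e]; exact one_mem K
  obtain ⟨p, hp, hd⟩ := Nat.exists_prime_and_dvd e
  obtain ⟨a, b, ha, hb, e, -, ⟨k, hk⟩, hc⟩ := H8.exists_pPart_pPrimePart hp g
  have d := orderOf_dvd_of_mem_zpowers hb
  rw [e]
  refine mul_mem (h a ha ⟨p, k, hp, fun e => ?_, hk⟩)
    (ih _ (hn ▸ lt_of_le_of_ne (Nat.le_of_dvd (orderOf_pos g) d) fun e => ?_) (ho.of_dvd_nat d)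
      (fun y hy => h y (zpowers_le.2 hb hy)) rfl)
  · exact (Nat.not_even_iff_odd.2 ho) (even_iff_two_dvd.2 (e ▸ hd))
  · exact hp.one_lt.ne' (Nat.Coprime.eq_one_of_dvd hc.symm (e ▸ hd))

theorem not_l34 [L.Normal] (hc : P4.CIT L) (he : Ev L) (h8 : E8 (⊤ : Subgroup L)) (h : NC L) :
    ¬ L34 L := by
  rintro ⟨⟨x, ox, hx⟩, -⟩
  have ox' : orderOf (x : B) = 7 := by rw [orderOf_coe, ox]
  obtain ⟨u, iu, c⟩ := he x x.2 ⟨7, 1, by norm_num, by norm_num, ox'⟩
  obtain ⟨a, -, ia⟩ := h8.exists_inv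
  obtain ⟨t, ht, it, c'⟩ := exists_inv_comm (K := L) iu (le_normalizer_of_normal (mem_top u))
    fun e => (map_inv_of_odd (f := L.subtype) (by simp) ia).not_mem_of_odd e a.2
  have := Agent.L.inverts_of_fpf it.sq (le_norm_th L u ⟨ht, mem_cent1.2 c'⟩) (fun y hy c => by
    have := hc ⟨t, ht⟩ ⟨y, (th_le L u hy).1⟩ (Subtype.ext it.sq)
      (by rw [orderOf_mk]; exact odd_orderOf_of_mem (odd_th L u) hy) (Subtype.ext c)
    exact congrArg Subtype.val (this.resolve_left fun e => it.ne (congrArg Subtype.val e)))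
    x ((h.mem_th iu).2 ⟨x.2, c, by rw [ox']; decide⟩)
  exact hx (isConj_iff.2 ⟨⟨t, ht⟩, Subtype.ext (by simpa [it.inv_eq] using this)⟩)

theorem exists_third {S : Subgroup B} (h8 : E8 S) (hc : ∀ a ∈ S, ∀ b ∈ S, Inv a → Inv b → Commute a b)
    {u t : B} (iu : Inv u) (hu : u ∈ 𝐍(S)) : ∃ b ∈ S, Inv b ∧ b ≠ t ∧ Commute u b := by
  by_contra hn
  push Not at hn
  have hc' : ∀ a ∈ S, ∀ b ∈ S, a * a = 1 → b * b = 1 → Commute a b := fun a ha b hb aa bb => by
    by_cases a1 : a = 1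
    · rw [a1]; exact Commute.one_left b
    by_cases b1 : b = 1
    · rw [b1]; exact Commute.one_right a
    exact hc a ha b hb ⟨a1, aa⟩ ⟨b1, bb⟩
  have key : ∀ a ∈ S, a * a = 1 → u * a * u⁻¹ = a → a = 1 ∨ a = t := fun a ha aa c => by
    by_contra e
    push Not at e
    exact hn a ha ⟨e.1, aa⟩ e.2 (mul_inv_eq_iff_eq_mul.1 c)
  have k2 : ∀ a ∈ S, a * a = 1 → u * a * u⁻¹ ≠ a → u * a * u⁻¹ = a * t := fun a ha aa c => by
    have m := P4.conj_mem hu ha
    have c1 := hc' a ha _ m aa (P4.conj_sq aa u)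
    rcases key _ (mul_mem ha m) (by
        rw [← pow_two, c1.mul_pow, pow_two, pow_two, aa, P4.conj_sq aa u, one_mul]) (by
        conv_rhs => rw [c1.eq]
        rw [iu.inv_eq]
        calc u * (a * (u * a * u)) * u = u * a * u * a * (u * u) := by group
          _ = _ := by rw [iu.sq, mul_one]) with e | e
    · exact absurd (by rw [eq_inv_of_mul_eq_one_right e, inv_eq_of_mul_eq_one_right aa]) c
    · rw [← e, ← mul_assoc, aa, one_mul]
  obtain ⟨E, hl, hE⟩ := h8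
  obtain ⟨a, ha, c⟩ : ∃ a, a * a = 1 ∧ (E : Set B) ⊆ {1, t, a, a * t} := by
    by_cases e : ∀ a ∈ E, u * a * u⁻¹ = a
    · exact ⟨1, one_mul 1, fun a ha => by
        rcases key a (hl ha) (sq_of_elem hE ha) (e a ha) with e | e <;> simp [e]⟩
    push Not at e
    obtain ⟨a, ha, e⟩ := e
    refine ⟨a, sq_of_elem hE ha, fun b hb => ?_⟩
    by_cases e' : u * b * u⁻¹ = b
    · rcases key b (hl hb) (sq_of_elem hE hb) e' with e | e <;> simp [e]
    · have h1 := k2 a (hl ha) (sq_of_elem hE ha) e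
      have h2 := k2 b (hl hb) (sq_of_elem hE hb) e'
      have aa := sq_of_elem hE ha
      have m := P4.conj_mem hu (hl ha)
      have tS : t ∈ S := (mul_mem_cancel_left (hl ha)).1 (h1 ▸ m)
      have tt : t * t = 1 := by
        rw [show t = a * (u * a * u⁻¹) by rw [h1, ← mul_assoc, aa, one_mul], ← pow_two,
          (hc' a (hl ha) _ m aa (P4.conj_sq aa u)).mul_pow, pow_two, pow_two, aa, P4.conj_sq aa u,
          one_mul]
      have := key (a * b) (mul_mem (hl ha) (hl hb)) (sq_of_elem hE (mul_mem ha hb)) (by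
        rw [show u * (a * b) * u⁻¹ = u * a * u⁻¹ * (u * b * u⁻¹) by group, h1, h2,
          ← (hc' t tS b (hl hb) tt (sq_of_elem hE hb)).eq]
        calc a * t * (t * b) = a * (t * t) * b := by group
          _ = _ := by rw [tt, mul_one])
      have e3 : b = a * (a * b) := by rw [← mul_assoc, aa, one_mul]
      rcases this with e | e <;> rw [e3, e] <;> simp
  have := (Set.ncard_le_ncard c).trans ((Set.ncard_insert_le _ _).trans (Nat.succ_le_succ
    ((Set.ncard_insert_le _ _).trans (Nat.succ_le_succ (Set.ncard_insert_le _ _)))))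
  rw [Set.ncard_singleton] at this
  exact absurd (hE.card.symm.trans_le this) (by norm_num)

theorem not_hasSE [L.Normal] (h3 : SE3Stmt.{u}) (h : NC L) (he : Ev L) (h8 : E8 (⊤ : Subgroup L)) :
    ¬ HasSE L := by
  intro hse
  have hc := h3 L (h.top le_rfl) hse h8
  obtain ⟨M, hM, se⟩ := hse
  obtain ⟨t, -, it⟩ := h8.exists_inv
  obtain ⟨α, hα⟩ := se.ex it
  obtain ⟨β, hβ⟩ : ∃ β : L ⧸ M, α ≠ β := by
    by_contra hc
    push Not at hc
    exact hM (eq_top_iff.2 fun x _ => by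
      simpa using QuotientGroup.eq.1 ((hc ((1 : L) : L ⧸ M)).symm.trans (hc (x : L ⧸ M))))
  obtain ⟨g, rfl⟩ := exists_smul_eq L α β
  have is := it.conj g
  have es := conj_fix (g := g) hα
  have ho := se.odd_mul it is hα es hβ
  refine hβ (se.uniq is ?_ es)
  refine (mul_mem_cancel_left (H := stabilizer L α) hα).1
    (mem_of_forall_OP ho fun x hx ⟨r, k, hr, r2, e⟩ => ?_)
  have hi : t * x * t = x⁻¹ := inverts_of_mem_zpowers it.sq (by
    rw [mul_inv_rev, is.inv_eq, it.inv_eq, ← mul_assoc, it.sq, one_mul]) hx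
  have it' := map_inv_of_odd (f := L.subtype) (by simp) it
  have hi' : (t : B) * x * t = (x : B)⁻¹ := congrArg Subtype.val hi
  obtain ⟨u₀, iu₀, c₀⟩ := he x x.2 ⟨r, k, hr, r2, by rw [orderOf_coe, e]⟩
  obtain ⟨u, hu, iu, c⟩ := exists_inv_comm (K := 𝐂[(x : B)]) it' (by
    rw [← conj_eq_self_iff, ← cent1_conj, it'.inv_eq]
    exact (congrArg (fun y : B => 𝐂[y]) hi').trans (cent1_inv _))
    fun e => iu₀.not_mem_of_odd e (mem_cent1.2 c₀.symm)
  obtain ⟨T, hT, hl⟩ := exists_isSyl_ge Nat.prime_two (Q := zpowers u ⊔ zpowers (t : B)) (M := ⊤)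
    (IsPGroup.to_sup_of_normal_right' iu.isPGroup it'.isPGroup (zpowers_le.2
      (centralizer_le_normalizer _ (by rw [cent_zpowers]; exact mem_cent1.2 c)))) le_top
  have hS := hT.inf_normal Nat.prime_two (K := L) ⟨le_top, le_normalizer_of_normal⟩
  have hP : IsPGroup 2 ((T ⊓ L).subgroupOf L) := hS.pgrp.comap_of_injective _ L.subtype_injective
  have hc' : ∀ a ∈ T ⊓ L, ∀ b ∈ T ⊓ L, Inv a → Inv b → Commute a b := fun a ha b hb ia ib =>
    congrArg Subtype.val (hc _ hP ⟨a, ha.2⟩ ha ⟨b, hb.2⟩ hb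
      ⟨fun e => ia.ne (congrArg Subtype.val e), Subtype.ext ia.sq⟩
      ⟨fun e => ib.ne (congrArg Subtype.val e), Subtype.ext ib.sq⟩)
  have h8' : E8 L := let ⟨E, _, b⟩ := h8
    ⟨E.map L.subtype, map_subtype_le _, (isElem_map_iff L.subtype_injective).2 b⟩
  obtain ⟨b, hb, ib, ne, cb⟩ := exists_third (h8'.syl hS) hc' iu (t := t)
    (H1.le_normalizer_inf le_normalizer le_normalizer_of_normal (hl (mem_sup_left (mem_zpowers u))))
  have nm : ∀ a : L, Commute u a → a ∈ 𝐍((th L u).subgroupOf L) := fun a ca =>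
    mem_normalizer_iff.2 fun y => mem_normalizer_iff.1 (norm_th u (mem_cent1.2 ca)) y
  refine se.le_stab_of_four it (b := ⟨b, hb.2⟩)
    ⟨fun e => ib.ne (congrArg Subtype.val e), Subtype.ext ib.sq⟩
    (fun e => ne (congrArg Subtype.val e).symm)
    (Subtype.ext (hc' _ ⟨hl (mem_sup_right (mem_zpowers _)), t.2⟩ _ hb it' ib)) hα
    (Odd.of_dvd_nat (odd_th L u) (card_comap_dvd_of_injective _ _ L.subtype_injective))
    (nm t c.symm) (nm _ cb) ((h.mem_th iu).2 ⟨x.2, (mem_cent1.1 hu).symm, ?_⟩)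
  rw [coe_subtype, orderOf_coe, e]; exact (hr.odd_of_ne_two r2).pow

end

theorem coreStmt (hG : GWStmt.{u}) (hC : CitStmt.{u}) (h2 : Rk2Stmt.{u}) (hE : EndStmt.{u}) :
    CoreStmt.{u} := by
  intro B _ _ L _ hs hc h he
  have ns : ¬ Group.IsSolvable L := fun e => hc ⟨⟨IsSimpleGroup.comm_iff_isSolvable.2 e⟩⟩
  by_cases h8 : E8 (⊤ : Subgroup L)
  · have hO : O1 L := fun N hN ho => (hs.eq_bot_or_eq_top_of_normal N hN).resolve_right fun e =>
      ns (feit_thompson L (by rwa [e, card_top] at ho))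
    have h3 := not_hasSE (se3Stmt r3Stmt hC) h he h8
    have cit := (r3Stmt L (h.top le_rfl) hO h8 (ttStmt L hs hc h8)).resolve_right h3
    refine not_l34 cit he h8 h ((hC L cit ((hs.eq_bot_or_eq_top_of_normal _
      inferInstance).resolve_right fun e => ns (H1.isSolvable_of_isPGroup (p := 2) ?_)) ns
      h8).resolve_left h3)
    have := Agent.L.isPGroup_pCore (G := L) 2
    rw [e] at this
    exact this.of_equiv topEquiv
  refine hE B L ‹_› hs hc h he ?_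
  by_cases h8' : 8 ∣ Nat.card L
  · have := (h2 L hs hc (h.top le_rfl) h8).resolve_left (not_not.2 h8')
    exact (hG L hs hc h8' this).imp_right fun e => ⟨e, this⟩
  · obtain ⟨F, _, _, -, h1, e⟩ := P5.isL2_of_simple hc h8'
    exact Or.inl ⟨F, _, _, Nat.odd_iff.2 (by omega), e⟩

end Cfsg.Agent.P29
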