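/-
P29: the solvable case of S4132.
-/
import Cfsg.Agent.H6.SqFree

set_option autoImplicit false
set_option linter.unusedSectionVars false
set_option linter.style.haveILetI false

namespace Cfsg.Agent.P29

open Subgroup Cfsg Cfsg.Agent Cfsg.Agent.FT Cfsg.Agent.H6
open scoped commutatorElement

universe u

/-- Primary elements have square-free class sizes. -/
def PSq (G : Type u) [Group G] : Prop :=
  ∀ x : G, (∃ r k : ℕ, r.Prime ∧ orderOf x = r ^ k) → Squarefree 𝐂[x].index

namespace PSq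

variable {G : Type u} [Group G] [Finite G] (h : PSq G)
include h

theorem quotient (N : Subgroup G) [N.Normal] : PSq (G ⧸ N) := fun y ⟨r, k, hr, hy⟩ => by
  obtain ⟨x, ⟨m, hm⟩, rfl⟩ := H9.exists_pElement_map_eq (QuotientGroup.mk'_surjective N) hr hy
  exact (h x ⟨r, m, hr, hm⟩).squarefree_of_dvd (H9.index_centralizer_mk_dvd N x)

theorem sq {q : ℕ} (hq : q.Prime) {Q : Subgroup G} (hQ : IsPGroup q Q) {x : G} (hx : x ∈ Q) :
    Squarefree 𝐂[x].index := by
  obtain ⟨n, hn⟩ := exists_card_eq_pow hq hQ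
  obtain ⟨k, -, hk⟩ := (Nat.dvd_prime_pow hq).1 (hn ▸ orderOf_dvd_card_of_mem hx)
  exact h x ⟨q, k, hq, hk⟩

theorem not_dvd {p q : ℕ} (hp : p.Prime) (hq : q.Prime) (V : Subgroup G) [V.Normal]
    {Q : Subgroup G} (hQ : IsPGroup q Q) {x : G} (hx : x ∈ Q) : ¬ p ^ 2 ∣ 𝐂[x].relIndex V :=
  fun hd => Nat.squarefree_iff_prime_squarefree.1 (h.sq hq hQ hx) p hp
    (pow_two p ▸ hd.trans (H9.relIndex_dvd_index_of_normal_right _ V))

theorem isCyclic (hs : Group.IsSolvable G) {V : Subgroup G} (hV : L.IsMinNormal V) :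
    IsCyclic V := by
  haveI := hV.1
  by_cases h1 : ⊤ ≤ 𝐂(V)
  · obtain ⟨v, hv, v1⟩ := (bot_or_exists_ne_one V).resolve_left hV.2.1
    have hn : (zpowers v).Normal := normal_iff_top_le.2
      (h1.trans ((cent_anti (zpowers_le.2 hv)).trans (cent_le_norm _)))
    rw [← (hV.2.2 _ hn (zpowers_le.2 hv)).resolve_left (mt zpowers_eq_bot.1 v1)]
    infer_instance
  obtain ⟨B, ⟨hB, hB1⟩, hmin⟩ := (wellFounded_lt (α := Subgroup G)).has_min
    {B | B.Normal ∧ ¬ B ≤ 𝐂(V)} ⟨⊤, inferInstance, h1⟩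
  obtain ⟨p, hp, hVp⟩ := hV.exists_isPGroup
  have hVc := isMulComm_iff_le_cent.1 hV.isMulCommutative_of_isSolvable
  have hbb : ⁅B, B⁆ ≤ 𝐂(V) := by
    by_contra hn
    exact hmin _ ⟨inferInstance, hn⟩ (Group.IsSolvable.commutator_lt_of_ne_bot (by
      rintro rfl
      exact hB1 bot_le))
  obtain ⟨q, hq, Q, hQ, hQ1⟩ : ∃ q : ℕ, q.Prime ∧ ∃ Q, IsSyl q Q B ∧ ¬ Q ≤ 𝐂(V) := by
    by_contra hn
    push Not at hn
    exact hB1 (le_of_forall_exists_isSyl_le fun q hq _ =>
      (exists_isSyl hq B).imp fun Q hQ => ⟨hQ, hn q hq Q hQ⟩)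
  have hK : Q ⊔ ⁅B, B⁆ ≤ B := sup_le hQ.le (commutator_le_self B)
  have hKn : (Q ⊔ ⁅B, B⁆).Normal := normal_iff_top_le.2 (by
    rw [← hQ.frattini hq (M := ⊤) ⟨le_top, le_normalizer_of_normal⟩]
    exact sup_le (le_norm_of_der_le le_sup_right hK)
      (inf_le_right.trans (H1.le_normalizer_sup le_rfl le_normalizer_of_normal)))
  have hBe : Q ⊔ ⁅B, B⁆ = B := by
    by_contra hn
    exact hmin _ ⟨hKn, fun e => hQ1 (le_sup_left.trans e)⟩ (lt_of_le_of_ne hK hn)
  have k : Kn p V B := ⟨hp, hVp, le_normalizer_of_normal, hbb,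
    (commutator_le_right B V).trans hVc, fun a ha => by
      rw [← hBe] at ha
      obtain ⟨x, hx, c, hc, rfl⟩ := mem_sup_of_normal_right.1 ha
      refine fun hd => h.not_dvd hp hq V hQ.pgrp hx (hd.trans ?_)
      rw [← inf_relIndex_right 𝐂[x]]
      refine relIndex_dvd_of_le_left _ fun v hv => mem_cent1_iff_commute.2 ?_
      exact (mem_cent1_iff_commute.1 hv.1).mul_left
        (show Commute v c from mem_cent.1 (hbb hc) v hv.2).symm⟩
  have h2 := k.card_dvd_of_fix fun a ha => eq_bot_iff.2 fun x hx => by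
    have : V ⊓ 𝐂(B) = ⊥ := (hV.inf_eq_bot_or_le _).resolve_right fun e => hB1 (cent_comm.1 e)
    rw [← this]
    refine ⟨?_, ha hx⟩
    obtain ⟨v, hv, rfl⟩ := k.mem_range.1 hx
    exact commutator_le_right B V (commutator_mem_commutator a.2 hv)
  rw [(hV.2.2 _ inferInstance (commutator_le_right B V)).resolve_left
    fun e => hB1 (comm_eq_bot_iff.1 e)] at h2
  exact isCyclic_of_card_dvd_prime (hp := ⟨hp⟩) h2

theorem card_der_dvd {p : ℕ} (hp : p.Prime) {P : Subgroup G} [P.Normal] (hP : IsPGroup p P) :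
    𝐨(⁅P, P⁆) ∣ p := by
  have hPP : ⁅P, P⁆ ≤ 𝐂(P) := cent_comm.1 fun z hz => mem_cent_iff_cent1.2
    (der_le_of_not_sq_dvd hp hP (h.not_dvd hp hp P hP hz))
  exact Kn.card_dvd_of_self ⟨hp, hP, le_normalizer, hPP, hPP, fun a ha => h.not_dvd hp hp P hP ha⟩

theorem squarefree_der {F : Subgroup G} [F.Normal] (hn : Group.IsNilpotent F) :
    Squarefree 𝐨(⁅F, F⁆) := by
  refine Nat.squarefree_iff_prime_squarefree.2 fun p hp hd => ?_
  have hH := hall_piCoreOf_of_isNilpotent hn {p}ᶜ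
  set N := piCoreOf {p}ᶜ F
  haveI : N.Normal := normal_iff_top_le.2
    (le_normalizer_of_normal.trans (norm_le_norm_hall_of_isNilpotent hn hH))
  have e : ∀ K : Subgroup G, 𝐨(K.map (QuotientGroup.mk' N)) = N.relIndex K := fun K => by
    rw [← relIndex_ker, QuotientGroup.ker_mk']
  have h1 := (H1.isPiHallOf_iff.1 hH).2.2
  rw [compl_compl] at h1
  obtain ⟨k, hk⟩ := (L.isPiNum_singleton_iff hp index_ne_zero_of_finite).1 h1
  haveI : (F.map (QuotientGroup.mk' N)).Normal := Normal.map ‹_› _ (QuotientGroup.mk'_surjective N)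
  have h2 := (h.quotient N).card_der_dvd hp (isPGroup_of_card_eq ((e F).trans hk))
  rw [← map_commutator, e, ← inf_relIndex_right] at h2
  rw [← relIndex_bot_left, ← relIndex_mul_relIndex ⊥ (N ⊓ ⁅F, F⁆) _ bot_le inf_le_right,
    relIndex_bot_left] at hd
  exact (isPi_compl_singleton_iff' hp).1 (hall_isPi hH)
    ((Nat.dvd_of_mul_dvd_mul_right hp.pos (hd.trans (Nat.mul_dvd_mul_left _ h2))).trans
      (FT.card_dvd_of_le inf_le_left))

end PSq

theorem PSq.nil (n : ℕ) (G : Type u) [Group G] [Finite G] : PSq G → Group.IsSolvable G →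
    (∀ d, Squarefree d → d ∣ Nat.card G → d ∣ n) →
    Group.IsNilpotent ↥(⁅(⊤ : Subgroup G), ⊤⁆ ⊔ closure (Set.range fun g : G => g ^ n)) := by
  refine L.induction_on_card (P := fun G _ _ => PSq G → Group.IsSolvable G →
    (∀ d, Squarefree d → d ∣ Nat.card G → d ∣ n) →
    Group.IsNilpotent ↥(⁅(⊤ : Subgroup G), ⊤⁆ ⊔ closure (Set.range fun g : G => g ^ n))) G
    fun G _ _ ih h hs hn => ?_
  rcases subsingleton_or_nontrivial G with hG | hG
  · infer_instance
  obtain ⟨V, hV⟩ := L.exists_isMinNormal (G := G)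
  haveI := hV.1
  haveI := h.isCyclic hs hV
  refine L.isNilpotent_of_map_mk'_of_le_centralizer V _ (sup_le
    (commutator_le_centralizer_of_isCyclic le_normalizer_of_normal le_normalizer_of_normal)
    ((closure_le _).2 ?_)) ?_
  · rintro _ ⟨g, rfl⟩
    obtain ⟨v, hv⟩ := isCyclic_iff_zpowers.1 this
    obtain ⟨p, hp, hVp⟩ := hV.exists_isPGroup
    have h1 := h.sq hp hVp (hv ▸ mem_zpowers v)
    have e : 𝐂[v] = 𝐂(V) := by rw [← hv, cent_zpowers]
    rw [e] at h1
    obtain ⟨m, rfl⟩ := hn _ h1 (index_dvd_card _)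
    change g ^ (_ * m) ∈ 𝐂(V)
    rw [pow_mul]
    exact pow_mem (pow_index_mem _ g) m
  · have hm := QuotientGroup.mk'_surjective V
    rw [Subgroup.map_sup, map_commutator, map_top_of_surjective _ hm, MonoidHom.map_closure,
      show QuotientGroup.mk' V '' (Set.range fun g : G => g ^ n) =
        Set.range fun g : G ⧸ V => g ^ n from ?_]
    · exact ih _ (L.card_quotient_lt V hV.2.1) (h.quotient V) inferInstance
        fun d h1 h2 => hn d h1 (h2.trans (card_quotient_dvd_card V))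
    · ext y
      refine ⟨?_, ?_⟩
      · rintro ⟨_, ⟨g, rfl⟩, rfl⟩
        exact ⟨_, (map_pow _ g n).symm⟩
      · rintro ⟨y, rfl⟩
        obtain ⟨g, rfl⟩ := hm y
        exact ⟨_, ⟨g, rfl⟩, map_pow _ g n⟩

theorem PSq.sup (G : Type u) [Group G] [Finite G] (h : PSq G) (hs : Group.IsSolvable G) :
    IsSupersolvable G := by
  obtain ⟨K, hK, hmax⟩ := (wellFounded_gt (α := Subgroup G)).has_min
    {K | SChain K} ⟨_, SChain.bot⟩
  have hKn : K.Normal := by
    cases hK with
    | bot => infer_instance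
    | step H g _ hn => exact hn
  have : K = ⊤ := by
    by_contra hn
    haveI : Nontrivial (G ⧸ K) := QuotientGroup.nontrivial_iff.2 hn
    obtain ⟨V, hV⟩ := L.exists_isMinNormal (G := G ⧸ K)
    obtain ⟨v, hv⟩ := isCyclic_iff_zpowers.1 ((h.quotient K).isCyclic inferInstance hV)
    obtain ⟨g, rfl⟩ := QuotientGroup.mk'_surjective K v
    have e : K ⊔ zpowers g = V.comap (QuotientGroup.mk' K) := by
      rw [← hv, ← MonoidHom.map_zpowers, comap_map_eq, QuotientGroup.ker_mk', sup_comm]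
    refine hmax _ (SChain.step K g hK (e ▸ hV.1.comap _)) (lt_of_le_of_ne le_sup_left fun e1 => ?_)
    have hg : g ∈ K := e1 ▸ mem_sup_right (mem_zpowers g)
    exact hV.2.1 (by
      rw [← hv, zpowers_eq_bot]
      exact (QuotientGroup.eq_one_iff g).2 hg)
  exact (this ▸ hK).exists_chain

/-- S4132 for solvable groups. -/
theorem s4132 {G : Type u} [Group G] [Finite G] (hs : Group.IsSolvable G)
    (h : ∀ x : G, (∃ (r : ℕ) (k : ℕ), r.Prime ∧ orderOf x = r ^ k) →
      Squarefree (Subgroup.centralizer ({x} : Set G)).index) :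
    Cfsg.IsSupersolvable G ∧ derivedSeries G 3 = ⊥ ∧
    (∀ _h : (Cfsg.fittingSubgroup G).Normal, IsMulCommutative (G ⧸ Cfsg.fittingSubgroup G) ∧
      Squarefree (Monoid.exponent (G ⧸ Cfsg.fittingSubgroup G))) ∧
    Squarefree (Nat.card (commutator ↥(Cfsg.fittingSubgroup G))) := by
  have h : PSq G := h
  set n := ∏ p ∈ (Nat.card G).primeFactors, p with hn
  have hK := L.le_fittingSubgroup (normal_iff_top_le.2 (le_norm_of_der_le le_sup_left le_top))
    (h.nil n G hs fun d h1 h2 => by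
      rw [← Nat.prod_primeFactors_of_squarefree h1]
      exact Finset.prod_dvd_prod_of_subset _ _ _ (Nat.primeFactors_mono h2 Nat.card_pos.ne'))
  haveI : (fittingSubgroup G).Normal := inferInstance
  have hF : Group.IsNilpotent (fittingSubgroup G) := inferInstance
  have hsq := h.squarefree_der hF
  refine ⟨h.sup G hs, ?_, fun _ => ⟨Normal.quotient_commutative_iff_commutator_le.2
    (le_sup_left.trans hK), Squarefree.squarefree_of_dvd (y := n) ?_ ?_⟩, ?_⟩
  · haveI := IsZGroup.of_squarefree hsq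
    haveI : Group.IsNilpotent ↥⁅fittingSubgroup G, fittingSubgroup G⁆ :=
      isNilpotent_of_le (commutator_le_self _) hF
    have h1 : derivedSeries G 1 ≤ fittingSubgroup G := le_sup_left.trans hK
    have h2 := comm_eq_bot_iff.2 (isMulComm_iff_le_cent.1
      (inferInstance : IsMulCommutative ↥⁅fittingSubgroup G, fittingSubgroup G⁆))
    exact eq_bot_iff.2 (h2 ▸ commutator_mono (commutator_mono h1 h1) (commutator_mono h1 h1))
  · refine Monoid.exponent_dvd_of_forall_pow_eq_one fun y => ?_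
    obtain ⟨g, rfl⟩ := QuotientGroup.mk'_surjective _ y
    rw [← map_pow]
    exact (QuotientGroup.eq_one_iff _).2 (hK (mem_sup_right (subset_closure ⟨g, rfl⟩)))
  · exact Finset.squarefree_prod_of_pairwise_isCoprime (fun p hp q hq hpq =>
      Nat.coprime_iff_isRelPrime.1 ((Nat.coprime_primes (Nat.prime_of_mem_primeFactors hp)
        (Nat.prime_of_mem_primeFactors hq)).2 hpq))
      fun p hp => (Nat.prime_of_mem_primeFactors hp).prime.squarefree
  · rwa [← map_subtype_commutator, card_map_of_injective (subtype_injective _)] at hsq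

end Cfsg.Agent.P29
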