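/-
P29: assembly.
-/
import Cfsg.Agent.P29.SE
import Cfsg.Agent.P29.Cit
import Cfsg.Agent.P29.Red
import Cfsg.Agent.P29.Rk2
import Cfsg.Agent.P29.Sol

set_option autoImplicit false

namespace Cfsg.Agent.P29

open Subgroup Cfsg Cfsg.Agent Cfsg.Agent.FT

universe u

theorem sim (hG : GWStmt.{u}) (hL : LyStmt.{u}) (hE : EndStmt.{u}) : SimStmt.{u} :=
  simStmt (coreStmt hG citStmt (rk2Stmt hL) hE)

theorem solv_of_sq (hS : SimStmt.{u}) {G : Type u} [Group G] [Finite G]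
    (h : ∀ x : G, (∃ r k : ℕ, r.Prime ∧ orderOf x = r ^ k) → Squarefree 𝐂[x].index) :
    Group.IsSolvable G := by
  by_cases e : 2 ∣ Nat.card G
  · exact (s4131 hS 2 e (fun r hr _ => hr.two_le) fun x ⟨r, k, hr, _, o⟩ d =>
      Nat.squarefree_iff_prime_squarefree.1 (h x ⟨r, k, hr, o⟩) 2 Nat.prime_two (pow_two 2 ▸ d)).2
  · exact feit_thompson G (Nat.odd_iff.2 (by omega))

end Cfsg.Agent.P29
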